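import Cfsg.Agent.E8A.D44.Iface2
import Cfsg.Agent.E8A.Two.Hx

/-!
# D44: the box `NF` (helper42)
-/

set_option autoImplicit false
set_option maxRecDepth 100000

namespace Cfsg.Agent.E8A.D44

open Cfsg Cfsg.Lie Module
open Cfsg.Agent.Nodes.RGDChev
open Cfsg.Agent.H288.E8L (Q8 wt wt_inr)
open Cfsg.Agent.E8A.Inf (toQ pk pw cj_ev_pow)
open Cfsg.Agent.E8A.Reg5.Cls (ex dz Cj)
open Cfsg.Agent.E8A.C63 (fd)
open Cfsg.Agent.E8A.Two Cfsg.Agent.E8A.TwoH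

universe u

namespace Nf

theorem chk : ∀ a b c d e f g h : Fin 2, pw 2 (pk 2 [a, b, c, d, e, f, g, h]) 1 0 = 120 →
    pw 2 (pk 2 [1 + a, b, c, d, e, f, g, h]) 1 0 = 120 → (∀ i, 2 ∣ ex (toQ [a, b, c, d, e, f, g, h]) (E2 i)) ∧
      (Finset.univ.filter fun i => 4 ∣ ex (toQ [a, b, c, d, e, f, g, h]) (E2 i)).card = 8 := by decide +kernel

theorem chk0 : ∀ a h : Fin 2, a.val + h.val ≤ 1 → pw 2 (pk 2 [a, 0, 0, 0, 0, 0, 0, h]) 1 0 = 120 →
    toQ [a, 0, 0, 0, 0, 0, 0, h] = Pi.single 0 1 := by decide +kernel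

theorem toQ_def (y : List ℕ) (i : Fin 8) : toQ y i = ((y.getD i 0 : ℕ) : ℤ) := rfl

theorem fd_cj {K : Type u} [Field K] (hζ : IsPrimitiveRoot (-1 : K) 2) {g : G8 K} {y : List ℕ} (h : Cj g (-1) (toQ y)) :
    fd g = pw 2 (pk 2 y) 1 0 := by
  have h1 := cj_ev_pow hζ two_ne_zero h 1 (k := 0) two_pos
  rwa [pow_one, pow_zero] at h1

end Nf

open Nf

/-- **NF** -/
theorem nf : NF.{u} := by
  intro F _ _ _ s t hs ht hc d1 d2 d3
  have : CharP (Kb F) 3 := charP_of_injective_algebraMap (algebraMap F (Kb F)).injective 3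
  have hζ : IsPrimitiveRoot (-1 : Kb F) 2 := IsPrimitiveRoot.neg_one 3 (by norm_num)
  have h0 : (-1 : Kb F) ≠ 0 := neg_ne_zero.2 one_ne_zero
  obtain ⟨k, b, hk, h⟩ := pair_kac Nat.prime_two (fun e => absurd ((CharP.cast_eq_zero_iff F 3 2).1 e) (by norm_num))
    hζ hs ht hc
  have e0 : (fun i => (k i : ℤ)) = toQ [k 0, 0, 0, 0, 0, 0, 0, k 7] := by
    have z : k 1 = 0 ∧ k 2 = 0 ∧ k 3 = 0 ∧ k 4 = 0 ∧ k 5 = 0 ∧ k 6 = 0 := by omega
    funext i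
    fin_cases i <;> simp [toQ_def, z]
  rw [e0] at h
  rw [chk0 ⟨k 0, by omega⟩ ⟨k 7, by omega⟩ (show k 0 + k 7 ≤ 1 by omega) ((fd_cj hζ h.left).symm.trans d1)] at h
  obtain ⟨v, hv⟩ : ∃ v : Fin 8 → Fin 2, ∀ i, (v i : ℤ) = b i % 2 :=
    ⟨fun i => ⟨(b i % 2).toNat, by omega⟩, fun i => Int.toNat_of_nonneg (by omega)⟩
  have e1 : ∀ i, toQ [v 0, v 1, v 2, v 3, v 4, v 5, v 6, v 7] i = (v i : ℤ) := fun i => by fin_cases i <;> rfl
  have h1 := h.congr hζ two_ne_zero (b' := toQ [v 0, v 1, v 2, v 3, v 4, v 5, v 6, v 7]) (fun _ => rfl) fun i => by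
    rw [e1, hv]
    exact (ZMod.intCast_mod _ 2).symm
  have e2 : toQ [1 + v 0, v 1, v 2, v 3, v 4, v 5, v 6, v 7] =
      Pi.single 0 1 + toQ [v 0, v 1, v 2, v 3, v 4, v 5, v 6, v 7] := by
    funext i
    fin_cases i <;> simp [toQ_def]
  obtain ⟨g1, g2⟩ := chk (v 0) (v 1) (v 2) (v 3) (v 4) (v 5) (v 6) (v 7) ((fd_cj hζ h1.right).symm.trans d2)
    ((fd_cj hζ (by rw [e2]; exact h1.mul h0)).symm.trans d3)
  generalize toQ [v 0, v 1, v 2, v 3, v 4, v 5, v 6, v 7] = y at h1 g1 g2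
  obtain ⟨c, c1, c2⟩ := h1
  have hb : ∀ i, ex y (E2 (bar i)) = -ex y (E2 i) := fun i => by
    have h2 := ex_add' y (E2 (bar i)) (E2 i)
    rw [E2_bar, neg_add_cancel, Reg5.Cls.ex_zero, ← E2_bar] at h2
    omega
  refine ⟨c⁻¹, _, by rw [inv_inv]; exact mx_of_semi c1, g2, fun i => ?_, fun i j => ?_⟩
  · simp only [Finset.mem_filter, Finset.mem_univ, true_and, hb, dvd_neg]
  rw [inv_inv]
  simp only [Finset.mem_filter, Finset.mem_univ, true_and]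
  rcases od_cases i j with rfl | rfl | ho
  · rw [cv_self, act_zero, if_pos Iff.rfl]
  · rw [if_pos (by rw [hb, dvd_neg]), cv_bar, act_dz_T (mx_of_semi c2) (inT_hq _)]
  · have h2 := ex_add' y (vec chevE8 8 (rt i j)) (vec chevE8 8 (rt i j))
    rw [← two_smul ℤ, vec_rt i j ho, ex_add'] at h2
    have h3 := g1 i
    have h4 := g1 j
    have h5 : act (c⁻¹ * t * c) (cv (Kb F) i j) = (-1 : Kb F) ^ ex y (vec chevE8 8 (rt i j)) • cv (Kb F) i j := by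
      funext m
      rw [act_dz (mx_of_semi c2), Pi.smul_apply, smul_eq_mul]
      by_cases hm : m = Sum.inr (rt i j)
      · rw [hm, wt_inr]
      · rw [cv_od ho, Pi.smul_apply, show ee (Kb F) (Sum.inr (rt i j)) m = 0 from Pi.single_eq_of_ne hm _, smul_zero,
          mul_zero, mul_zero]
    rw [h5]
    split_ifs with h6
    · rw [Even.neg_one_zpow (Int.even_iff.2 (by omega)), one_smul]
    · rw [Odd.neg_one_zpow (Int.odd_iff.2 (by omega)), neg_one_smul]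

end Cfsg.Agent.E8A.D44
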