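import Cfsg.Agent.E8A.D44.Iface2

/-!
# D44: the box NS (helper5)

* `Ns.lk_step`, `Ns.red` : root elements move a singular vector to a basis vector; `Ns.ext` : `a ∧ b` is extremal;
* `Ns.parx` : no extremal vector commutes with all its conjugates; `ns : NS`.
-/

set_option autoImplicit false
set_option maxRecDepth 100000

namespace Cfsg.Agent.E8A.D44

open Cfsg Cfsg.Lie Module
open Cfsg.Agent.E8A.C63 (NoPar)
open Cfsg.Agent.E8A.Par (Extr act_xr kf_ee ux_ne_one ux_pow conj_ux ux_comm orbit_group finite_closure exists_par_of_pgroup)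

universe u

namespace Ns

section

variable {K : Type u} [Field K]

variable (K) in
/-- the linear part of a root element -/
def tt (i j : Fin 16) : Module.End K (V16 K) :=
  (LinearMap.proj (bar j)).smulRight (vb K i) - (LinearMap.proj (bar i)).smulRight (vb K j)

theorem st_apply (i j : Fin 16) (t : K) (x : V16 K) :
    (1 + t • tt K i j) x = x + t • (x (bar j) • vb K i - x (bar i) • vb K j) := rfl

theorem lk_mul {g g' : G8 K} {M M' : Module.End K (V16 K)} (h : Lk g M) (h' : Lk g' M') : Lk (g * g') (M * M') :=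
  ⟨fun x y => by rw [Module.End.mul_apply, Module.End.mul_apply, h.orth, h'.orth],
    fun x y => by rw [act_mul, h'.act, h.act]; rfl⟩

theorem lk_one : Lk (1 : G8 K) 1 := ⟨fun _ _ => rfl, fun _ _ => act_one _⟩

variable [CharP K 3]

theorem lk_step {i j : Fin 16} (h : Od i j) (t : K) : Lk (xr (rt i j) (t * sg i j)) (1 + t • tt K i j) := by
  have h1 : vb K i (bar i) = 0 := by rw [vb_apply, if_neg (bar_ne i)]
  have h2 : vb K j (bar j) = 0 := by rw [vb_apply, if_neg (bar_ne j)]
  have h3 : vb K j (bar i) = 0 := by rw [vb_apply, if_neg (Ne.symm h.2)]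
  have h4 : vb K i (bar j) = 0 := by rw [vb_apply, if_neg (Ne.symm (od_symm h).2)]
  refine ⟨fun x y => ?_, fun x y => ?_⟩
  · rw [st_apply, st_apply]
    simp only [map_add, map_sub, map_smul, LinearMap.add_apply, LinearMap.sub_apply, LinearMap.smul_apply,
      fm_vb, fm_vb', h1, h2, h3, h4, smul_eq_mul]
    ring
  · have e1 : ee K (Sum.inr (rt i j)) = (sg i j : K) • be K (vb K i) (vb K j) := by
      rw [be_vb, cv_od h, smul_smul, sg_sq h, one_smul]
    rw [act_xr, kf_ee, op_rt h, be_rt _ _ (od_bar h), (tab_rt i j h).2.2.1, e1, br_smul_left, br_be, st_apply, st_apply]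
    simp only [map_add, map_sub, map_smul, LinearMap.add_apply, LinearMap.sub_apply, LinearMap.smul_apply,
      fm_vb, be_self, be_anti (vb K i) (vb K j), be_anti (vb K i) x, be_anti (vb K j) x]
    have h5 := sg_sq (K := K) h
    generalize (sg i j : K) = s at h5
    have h6 : s * s * (s * s) = 1 := by rw [h5, mul_one]
    match_scalars
    · ring
    · linear_combination (t * x (bar j)) * h5
    · linear_combination (-t * x (bar i)) * h5
    · linear_combination (-t * y (bar j)) * h5
    · linear_combination (t * y (bar i)) * h5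
    · linear_combination (-(t ^ 2 * (x (bar j) * y (bar i) - x (bar i) * y (bar j)))) * h6

theorem red (i : Fin 16) (J : Finset (Fin 16)) : ∀ a : V16 K, a i ≠ 0 → fm K a a = 0 → (∀ j, Od i j → a j ≠ 0 → j ∈ J) →
    ∃ g M, Lk g M ∧ M a = a i • vb K i ∧ ∀ x, x i = 0 → (∀ j ∈ J, x (bar j) = 0) → M x = x := by
  induction J using Finset.induction_on with
  | empty =>
    intro a hi h0 hJ
    have h1 : a = a i • vb K i + a (bar i) • vb K (bar i) := funext fun j => by
      rw [Pi.add_apply, Pi.smul_apply, Pi.smul_apply, vb_apply, vb_apply]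
      rcases od_cases i j with rfl | rfl | h
      · rw [if_pos rfl, if_neg (bar_ne j).symm, smul_zero, add_zero, smul_eq_mul, mul_one]
      · rw [if_neg (bar_ne i), if_pos rfl, smul_zero, zero_add, smul_eq_mul, mul_one]
      · rw [if_neg h.1, if_neg h.2, smul_zero, smul_zero, add_zero]
        exact of_not_not fun e => Finset.notMem_empty j (hJ j h e)
    have h2 : a (bar i) = 0 := by
      nth_rw 1 [h1] at h0
      simp only [map_add, map_smul, LinearMap.add_apply, LinearMap.smul_apply, fm_vb, bar_bar, smul_eq_mul] at h0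
      refine (mul_eq_zero.1 (?_ : a i * a (bar i) = 0)).resolve_left hi
      linear_combination (-1 : K) * h0 + a i * a (bar i) * three_K (K := K)
    rw [h2, zero_smul, add_zero] at h1
    exact ⟨1, 1, lk_one, h1, fun _ _ _ => rfl⟩
  | insert j J _ ih =>
    intro a hi h0 hJ
    by_cases h : Od i j
    · have h' : Od j (bar i) := ⟨Ne.symm h.2, fun e => h.1 (bar_inj.1 e).symm⟩
      have L := lk_step h' (-(a j / a i))
      have hc : ∀ k, k ≠ bar i → (1 + -(a j / a i) • tt K j (bar i)) a k = if k = j then 0 else a k := fun k hk => by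
        rw [st_apply, bar_bar, Pi.add_apply, Pi.smul_apply, Pi.sub_apply, Pi.smul_apply, Pi.smul_apply, vb_apply, vb_apply,
          if_neg hk]
        split_ifs with e
        · rw [e]
          simp only [smul_eq_mul]
          field_simp
          ring
        · simp
      have hi' := hc i (bar_ne i).symm
      rw [if_neg h.1.symm] at hi'
      obtain ⟨g, M, h1, h2, h3⟩ := ih ((1 + -(a j / a i) • tt K j (bar i)) a) (by rwa [hi']) (by rw [L.orth, h0]) fun k hk e => by
        rw [hc k hk.2] at e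
        split_ifs at e with e'
        · exact absurd rfl e
        · exact (Finset.mem_insert.1 (hJ k hk e)).resolve_left e'
      refine ⟨_, _, lk_mul h1 L, by rw [Module.End.mul_apply, h2, hi'], fun x x1 x2 => ?_⟩
      rw [Module.End.mul_apply, st_apply, bar_bar, x1, x2 j (Finset.mem_insert_self _ _), zero_smul, zero_smul, sub_self,
        smul_zero, add_zero]
      exact h3 x x1 fun k hk => x2 k (Finset.mem_insert_of_mem hk)
    · obtain ⟨g, M, h1, h2, h3⟩ := ih a hi h0 fun k hk e =>
        (Finset.mem_insert.1 (hJ k hk e)).resolve_left fun e' => h (e' ▸ hk)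
      exact ⟨g, M, h1, h2, fun x x1 x2 => h3 x x1 fun k hk => x2 k (Finset.mem_insert_of_mem hk)⟩

/-- the product of two orthogonal singular vectors is extremal -/
theorem ext {a b : V16 K} (ha : fm K a a = 0) (hb : fm K b b = 0) (hab : fm K a b = 0) (h0 : be K a b ≠ 0) :
    Extr (be K a b) := by
  classical
  obtain ⟨i, hi⟩ : ∃ i, a i ≠ 0 := Function.ne_iff.1 fun e : a = 0 => h0 (by rw [e, map_zero, LinearMap.zero_apply])
  obtain ⟨g, M, L, h2, -⟩ := red i Finset.univ a hi ha fun _ _ _ => Finset.mem_univ _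
  have h3 : M b (bar i) = 0 := by
    rw [← L.orth, h2, map_smul, LinearMap.smul_apply, fm_vb, smul_eq_mul] at hab
    exact (mul_eq_zero.1 hab).resolve_left hi
  obtain ⟨c, hc⟩ : ∃ c, c = M b - M b i • vb K i := ⟨_, rfl⟩
  have c1 : c i = 0 := by rw [hc, Pi.sub_apply, Pi.smul_apply, vb_apply, if_pos rfl, smul_eq_mul, mul_one, sub_self]
  have c2 : c (bar i) = 0 := by rw [hc, Pi.sub_apply, Pi.smul_apply, vb_apply, if_neg (bar_ne i), h3, smul_zero, sub_zero]
  have c3 : fm K c c = 0 := by
    nth_rw 1 [hc]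
    rw [map_sub, map_smul, LinearMap.sub_apply, LinearMap.smul_apply, fm_vb, c2, smul_zero, sub_zero, hc, map_sub, map_smul,
      fm_vb', h3, smul_zero, sub_zero, L.orth, hb]
  have c4 : act g (be K a b) = a i • be K (vb K i) c := by
    rw [L.act, h2, hc, map_sub, map_smul, map_smul, be_self, smul_zero, sub_zero, LinearMap.smul_apply]
  obtain ⟨k, hk⟩ : ∃ k, c k ≠ 0 := Function.ne_iff.1 fun e : c = 0 =>
    h0 (act_eq_zero (g := g) (by rw [c4, e, map_zero, smul_zero]))
  have hik : Od i k := ⟨fun e => hk (e ▸ c1), fun e => hk (e ▸ c2)⟩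
  obtain ⟨g', M', L', k2, k3⟩ := red k (Finset.univ.filter fun j => c j ≠ 0) c hk c3 fun _ _ e =>
    Finset.mem_filter.2 ⟨Finset.mem_univ _, e⟩
  have k4 : M' (vb K i) = vb K i := k3 _ (by rw [vb_apply, if_neg hik.1]) fun j hj => by
    rw [vb_apply, if_neg]
    intro e
    exact (Finset.mem_filter.1 hj).2 (by rw [← bar_bar j, e, c2])
  have k5 : act g' (act g (be K a b)) = (a i * c k * sg i k) • act 1 (ee K (Sum.inr (rt i k))) := by
    rw [c4, act_smul, L'.act, k4, k2, map_smul, be_vb, cv_od hik, act_one, smul_smul, smul_smul]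
  have k6 : Extr (act g' (act g (be K a b))) :=
    ⟨1, rt i k, _, mul_ne_zero (mul_ne_zero hi hk) (left_ne_zero_of_mul_eq_one (sg_sq hik)), k5⟩
  have k7 := (k6.act g'⁻¹).act g⁻¹
  rwa [act_inv, act_inv] at k7

end

/-- no extremal vector commutes with all its conjugates -/
theorem parx {F : Type u} [Field F] [Finite F] [CharP F 3] {ψ : Alt 6 →* G8 (Kb F)} (hP : NoPar ψ) {x : L8 (Kb F)}
    (hx : Extr x) (hc : ∀ a, br x (act (ψ a) x) = 0) : False := by
  obtain ⟨g, r, c, hc0, rfl⟩ := hx
  have : CharP (Kb F) 3 := charP_of_injective_algebraMap (algebraMap F (Kb F)).injective 3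
  have : Fact (Nat.Prime 3) := ⟨Nat.prime_three⟩
  obtain ⟨h2, h3, h4⟩ := orbit_group ψ (ux_ne_one g r (one_ne_zero (α := Kb F))) (ux_pow 3 g r 1) fun a => by
    rw [conj_ux]
    refine ux_comm ?_ 1 1
    have h1 := hc a
    rw [act_smul, br_smul_left, br_smul_right, smul_smul, ← act_mul] at h1
    exact (smul_eq_zero.1 h1).resolve_left (mul_ne_zero hc0 hc0)
  have := finite_closure (locFinKb F) (Set.finite_range fun a => ψ a * Par.ux g r 1 * (ψ a)⁻¹)
  obtain ⟨g', lam, h5, h6⟩ := exists_par_of_pgroup (locFinKb F) 3 h2 h3 (y := fun a => ψ a) fun a => by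
    rw [Subgroup.mem_normalizer_iff]
    refine fun x => ⟨h4 a x, fun hx => ?_⟩
    have h7 := h4 a⁻¹ _ hx
    rwa [map_inv, show (ψ a)⁻¹ * (ψ a * x * (ψ a)⁻¹) * (ψ a)⁻¹⁻¹ = x by group] at h7
  exact hP g' lam h5 h6

theorem exists_od : ∀ i : Fin 16, ∃ j, Od i j := by decide

end Ns

open Ns in
/-- **NS** -/
theorem ns : NS.{u} := by
  intro F _ _ _ ψ hP σ hL S h0 hS hz
  have : CharP (Kb F) 3 := charP_of_injective_algebraMap (algebraMap F (Kb F)).injective 3
  by_cases h : ∃ a ∈ S, ∃ b ∈ S, be (Kb F) a b ≠ 0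
  · obtain ⟨a, ha, b, hb, hab⟩ := h
    refine parx hP (ext (hz a ha a ha) (hz b hb b hb) (hz a ha b hb) hab) fun g => ?_
    rw [(hL g).act, br_be, hz _ hb _ (hS g a ha), hz _ ha _ (hS g a ha), hz _ hb _ (hS g b hb), hz _ ha _ (hS g b hb)]
    simp
  · push Not at h
    obtain ⟨s, hs, hs0⟩ := (Submodule.ne_bot_iff _).1 h0
    obtain ⟨i, hi⟩ : ∃ i, s i ≠ 0 := Function.ne_iff.1 hs0
    obtain ⟨j, hj⟩ := exists_od i
    obtain ⟨v, hv⟩ : ∃ v, v = s i • vb (Kb F) j - s (bar j) • vb (Kb F) (bar i) := ⟨_, rfl⟩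
    have v1 : v i = 0 := by
      rw [hv, Pi.sub_apply, Pi.smul_apply, Pi.smul_apply, vb_apply, vb_apply, if_neg hj.1.symm, if_neg (bar_ne i).symm]
      simp
    have v2 : v (bar j) = 0 := by
      rw [hv, Pi.sub_apply, Pi.smul_apply, Pi.smul_apply, vb_apply, vb_apply, if_neg (bar_ne j),
        if_neg fun e => hj.1 (bar_inj.1 e)]
      simp
    have v3 : v j = s i := by
      rw [hv, Pi.sub_apply, Pi.smul_apply, Pi.smul_apply, vb_apply, vb_apply, if_pos rfl, if_neg hj.2]
      simp
    have v4 : ∀ y, fm (Kb F) v y = s i * y (bar j) - s (bar j) * y i := fun y => by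
      rw [hv, map_sub, map_smul, map_smul, LinearMap.sub_apply, LinearMap.smul_apply, LinearMap.smul_apply, fm_vb, fm_vb,
        bar_bar, smul_eq_mul, smul_eq_mul]
    have v5 : fm (Kb F) v s = 0 := by rw [v4]; ring
    have v6 : be (Kb F) s v ≠ 0 := fun e => by
      have h1 := be_eq_zero e i j
      rw [v1, v3, mul_zero] at h1
      exact mul_ne_zero hi hi h1
    refine parx hP (ext (hz s hs s hs) (by rw [v4, v1, v2]; ring) (by rw [fm_comm, v5]) v6) fun g => ?_
    have w1 : σ g s = (σ g s i / s i) • s := funext fun k => by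
      have h1 := be_eq_zero (h s hs _ (hS g s hs)) i k
      rw [Pi.smul_apply, smul_eq_mul]
      field_simp
      linear_combination h1
    have w2 : fm (Kb F) s (σ g v) = 0 := by
      by_contra e
      have h1 := (hL g).orth s v
      rw [fm_comm s v, v5, w1, map_smul, LinearMap.smul_apply, smul_eq_mul] at h1
      rw [(mul_eq_zero.1 h1).resolve_right e, zero_smul] at w1
      exact hs0 (fm_nd fun y => by rw [← (hL g).orth, w1, map_zero, LinearMap.zero_apply])
    have w3 : fm (Kb F) v (σ g s) = 0 := by rw [w1, map_smul, v5, smul_zero]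
    rw [(hL g).act, br_be, w2, w3, hz _ hs _ (hS g s hs), h s hs _ (hS g s hs)]
    simp

end Cfsg.Agent.E8A.D44
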