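import Cfsg.Agent.E8A.D44.Iface
import Cfsg.Agent.E8A.C63.ModC
import Cfsg.Agent.Lib.AltCarmichael

/-!
# D44: the box `ORT` (helper42)

* `Ort.lin` : linear representations; `Ort.Sit` : central extensions; `Sit.plus`, `Sit.minus`; `ort : ORT`.
-/

set_option autoImplicit false
set_option maxRecDepth 100000

namespace Cfsg.Agent.E8A.D44

open Cfsg Cfsg.Lie Module
open Cfsg.Agent.E8A.C63 Cfsg.Agent.E8A.C63.Md
open Cfsg.Agent.Lib.AltCarmichael (cyc cyc_mem gen_cyc)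

universe u

namespace Ort

variable {K : Type u} [Field K] {V : Type u} [AddCommGroup V] [Module K V] {B : V →ₗ[K] V →ₗ[K] K} {U : Submodule K V}

theorem half [CharP K 3] {x : V} (h : x = -x) : x = 0 := by
  linear_combination (norm := abel1) three (K := K) x - h

theorem sing_span {S : Set V} (h : ∀ x ∈ S, ∀ y ∈ S, B x y = 0) :
    ∀ x ∈ Submodule.span K S, ∀ y ∈ Submodule.span K S, B x y = 0 := fun _ hx y hy =>
  (Submodule.span_le (p := LinearMap.ker (B.flip y))).2 (fun x hx =>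
    (Submodule.span_le (p := LinearMap.ker (B x))).2 (h x hx) hy) hx

/-! ### linear representations -/

section Lin

/-- the linear case -/
structure Ln (B : V →ₗ[K] V →ₗ[K] K) (ρ : Representation K (Alt 6) V) (U : Submodule K V) : Prop where
  symm : ∀ x y, B x y = B y x
  orth : ∀ a x y, B (ρ a x) (ρ a y) = B x y
  ts : ∀ S ≤ U, S ≠ ⊥ → InvR ρ S → (∀ x ∈ S, ∀ y ∈ S, B x y = 0) → False
  nf : ∀ v ∈ U, (∀ a, ρ a v = v) → v = 0

variable {ρ : Representation K (Alt 6) V}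

theorem Ln.perp (H : Ln B ρ U) {S : Submodule K V} (hS : InvR ρ S) : InvR ρ (LinearMap.BilinForm.orthogonal B S) :=
  fun a v hv n hn => by
    have h := H.orth a (ρ a⁻¹ n) v
    rw [← rho_mul, mul_inv_cancel, rho_one] at h
    exact h.trans (hv _ (hS a⁻¹ n hn))

theorem inf_inv {S T : Submodule K V} (hS : InvR ρ S) (hT : InvR ρ T) : InvR ρ (S ⊓ T) :=
  fun a v hv => ⟨hS a v hv.1, hT a v hv.2⟩

theorem Ln.disj (H : Ln B ρ U) {S : Submodule K V} (hle : S ≤ U) (hS : InvR ρ S) :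
    S ⊓ LinearMap.BilinForm.orthogonal B S = ⊥ := by
  by_contra h
  exact H.ts _ (inf_le_left.trans hle) h (inf_inv hS (H.perp hS)) fun x hx y hy => hy.2 x hx.1

theorem Ln.dim [FiniteDimensional K V] (H : Ln B ρ U) {S W : Submodule K V} (hle : S ≤ W) (hW : W ≤ U) (hS : InvR ρ S) :
    finrank K ↥S + finrank K ↥(LinearMap.BilinForm.orthogonal B S ⊓ W) = finrank K ↥W := by
  have hr : LinearMap.BilinForm.IsRefl B := fun x y h => (H.symm y x).trans h
  have hd := H.disj (hle.trans hW) hS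
  have hc := LinearMap.BilinForm.isCompl_orthogonal_of_restrict_nondegenerate hr
    (LinearMap.BilinForm.nondegenerate_restrict_of_disjoint_orthogonal B hr (disjoint_iff.2 hd))
  have h1 := Submodule.finrank_sup_add_finrank_inf_eq S (LinearMap.BilinForm.orthogonal B S ⊓ W)
  rw [← sup_inf_assoc_of_le _ hle, hc.sup_eq_top, top_inf_eq, ← inf_assoc, hd, bot_inf_eq, finrank_bot, add_zero] at h1
  exact h1.symm

variable [CharP K 3]

theorem Ln.four (H : Ln B ρ U) {s : Fin 6 → Fin 6 → V} (T : T4 ρ s) (h0 : s 0 1 ≠ 0) (hU : ∀ i j, s i j ∈ U) :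
    B (s 0 1) (s 0 1) ≠ 0 := fun h => by
  have h1 : ∀ i j, B (s i j) (s i j) = 0 := fun i j => by
    by_cases hij : i = j
    · rw [hij, T.self, map_zero]
    obtain ⟨a, e1, e2⟩ := two_trans (i := 0) (j := 1) (by decide) hij
    rw [← e1, ← e2, ← T.act, H.orth, h]
  have h2 : ∀ i k, B (s 0 i) (s 0 k) = 0 := fun i k => by
    have h3 := h1 i k
    rw [T.sub, map_sub, map_sub, LinearMap.sub_apply, LinearMap.sub_apply, h1, h1, H.symm (s 0 k)] at h3
    exact half (K := K) (by linear_combination -h3)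
  refine H.ts _ (Submodule.span_le.2 ?_) ((Submodule.ne_bot_iff _).2 ⟨_, T.mem_span 0 1, h0⟩) T.invR (sing_span ?_)
  · rintro _ (rfl | rfl | rfl | rfl) <;> exact hU _ _
  · rintro _ (rfl | rfl | rfl | rfl) _ (rfl | rfl | rfl | rfl) <;> exact h2 _ _

variable [IsAlgClosed K] [FiniteDimensional K V]

theorem Ln.split (H : Ln B ρ U) {W : Submodule K V} (hW : W ≤ U) (hi : InvR ρ W) (h0 : finrank K ↥W ≠ 0)
    (h8 : finrank K ↥W ≤ 8) : ∃ S ≤ W, InvR ρ S ∧ (finrank K ↥S = 3 ∨ finrank K ↥S = 4 ∧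
      ∃ r, T4 ρ r ∧ r 0 1 ≠ 0 ∧ ∀ i j, r i j ∈ S) := by
  rcases mod K V ρ W (fun h => h0 (by rw [h, finrank_bot])) hi with ⟨v, hv, h1, h2⟩ | ⟨ι, e, h, f, T, h1, h2, h3, h4⟩ |
    ⟨r, T, h1, h2⟩ | ⟨W', h1, -, h2, -⟩
  · exact absurd (H.nf v (hW hv) h2) h1
  · obtain ⟨h5, h6, -⟩ := t3b K V ρ ι e h f T h1
    refine ⟨_, Submodule.span_le.2 ?_, h6, Or.inl ?_⟩
    · rintro _ (rfl | rfl | rfl) <;> assumption
    · have h7 := finrank_span_eq_card h5
      rwa [Matrix.range_cons, Matrix.range_cons, Matrix.range_cons_empty] at h7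
  · obtain ⟨h5, h6, h7, -⟩ := t4b K V ρ r T h1
    refine ⟨_, Submodule.span_le.2 ?_, h7, Or.inr ⟨?_, r, T, h1, h6⟩⟩
    · rintro _ (rfl | rfl | rfl | rfl) <;> exact h2 _ _
    · have h7 := finrank_span_eq_card h5
      rwa [Matrix.range_cons, Matrix.range_cons, Matrix.range_cons, Matrix.range_cons_empty] at h7
  · have := Submodule.finrank_mono h1
    omega

theorem Ln.small (H : Ln B ρ U) {W : Submodule K V} (hW : W ≤ U) (hi : InvR ρ W) (h0 : finrank K ↥W ≠ 0) :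
    3 ≤ finrank K ↥W := by
  by_contra h
  obtain ⟨S, h1, -, h2⟩ := H.split hW hi h0 (by omega)
  have := Submodule.finrank_mono h1
  omega

theorem Ln.false (H : Ln B ρ U) (hi : InvR ρ U) (h8 : finrank K ↥U = 8) : False := by
  obtain ⟨S, h1, h2, h3⟩ := H.split le_rfl hi (by omega) h8.le
  have d1 := H.dim h1 le_rfl h2
  have i1 := inf_inv (H.perp h2) hi
  obtain ⟨S', h4, h5, h6⟩ := H.split inf_le_right i1 (by omega) (by omega)
  have d2 := H.dim h4 inf_le_right h5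
  have d3 := H.small (inf_le_right.trans inf_le_right) (inf_inv (H.perp h5) i1)
  rcases h3 with h3 | ⟨h3, r, T, r0, hr⟩
  · omega
  rcases h6 with h6 | ⟨-, r', T', r1, hr'⟩
  · omega
  have o : B (r 0 1) (r' 0 1) = 0 := (h4 (hr' 0 1)).1 _ (hr 0 1)
  have n := H.four T' r1 fun i j => (h4 (hr' i j)).2
  obtain ⟨c, hc⟩ := IsAlgClosed.exists_eq_mul_self (-B (r 0 1) (r 0 1) / B (r' 0 1) (r' 0 1))
  rw [div_eq_iff n] at hc
  refine H.four (s := fun i j => r i j + c • r' i j) ⟨fun a i j => by rw [map_add, map_smul, T.act, T'.act],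
    fun i j k => by rw [← T.add i j k, ← T'.add i j k]; module,
    fun i => by rw [Finset.sum_add_distrib, ← Finset.smul_sum, T.sum, T'.sum, smul_zero, add_zero]⟩ (fun h => r0 ?_)
    (fun i j => U.add_mem (h1 (hr i j)) (U.smul_mem _ (h4 (hr' i j)).2)) ?_
  · have h7 : r 0 1 ∈ S ⊓ LinearMap.BilinForm.orthogonal B S := ⟨hr 0 1, by
      rw [eq_neg_of_add_eq_zero_left h]
      exact Submodule.neg_mem _ (Submodule.smul_mem _ _ (h4 (hr' 0 1)).1)⟩
    rwa [H.disj h1 h2] at h7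
  · simp only [map_add, map_smul, LinearMap.add_apply, LinearMap.smul_apply, smul_eq_mul, H.symm (r' 0 1) (r 0 1), o]
    linear_combination -hc

end Lin

/-! ### central extensions -/

/-- words -/
def ww (l : List (Fin 3)) : Alt 6 := (l.map gs).prod

/-- the generators of Carmichael -/
def cc (i : Fin 4) : Alt 6 := ⟨cyc 4 i, cyc_mem 4 i i.2⟩

/-- conjugating words -/
def tb : Fin 4 → Fin 4 → List (Fin 3) :=
  ![![[], [0, 2, 0, 1, 0], [2, 0, 1, 0, 0], [1, 0]], ![[2, 0, 0, 1, 0], [], [0, 0, 2, 0, 1, 0], [0, 1, 0]],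
    ![[2, 0, 1, 0], [0, 2, 0, 0, 1, 0], [], [0, 0, 1, 0]], ![[1, 0, 0], [0, 1, 0, 0], [0, 0, 1, 0, 0], []]]

theorem tb_ok : ∀ i j, i ≠ j → cc i * cc j * ww (tb i j) = ww (tb i j) * dd := by decide +kernel

theorem cc3 : ∀ i, cc i ^ 3 = 1 := by decide +kernel

theorem bru : ∀ j : Fin 10, gg j = 1 ∨ ∃ x y : Fin 3, uu ^ x.val * u2 ^ y.val * gg j = dd := by decide +kernel

variable {Γ : Type*} [Group Γ]

/-- the projective case -/
structure Sit (B : V →ₗ[K] V →ₗ[K] K) (π : Γ →* Alt 6) (τ : Γ →* Module.End K V) (U : Submodule K V) : Prop where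
  surj : Function.Surjective π
  ker : ∀ g, π g = 1 → τ g = 1 ∨ τ g = -1
  inj : ∀ g, π g = 1 → τ g = 1 → g = 1
  symm : ∀ x y, B x y = B y x
  orth : ∀ g x y, B (τ g x) (τ g y) = B x y
  inv : ∀ g, ∀ x ∈ U, τ g x ∈ U
  ts : ∀ S ≤ U, S ≠ ⊥ → (∀ g, ∀ x ∈ S, τ g x ∈ S) → (∀ x ∈ S, ∀ y ∈ S, B x y = 0) → False

variable {π : Γ →* Alt 6} {τ : Γ →* Module.End K V}

theorem tau_mul (g h : Γ) (v : V) : τ (g * h) v = τ g (τ h v) := by rw [map_mul]; rfl

namespace Sit

variable (H : Sit B π τ U)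
include H

theorem pm {g h : Γ} (e : π g = π h) : τ g = τ h ∨ τ g = -τ h := by
  have h1 : τ g = τ (g * h⁻¹) * τ h := by rw [← map_mul, inv_mul_cancel_right]
  rcases H.ker (g * h⁻¹) (by rw [map_mul, map_inv, e, mul_inv_cancel]) with h2 | h2
  · exact Or.inl (by rw [h1, h2, one_mul])
  · exact Or.inr (by rw [h1, h2, neg_one_mul])

theorem sq {g h : Γ} (e : π g = π h) : τ (g * g) = τ (h * h) := by
  rw [map_mul, map_mul]
  rcases H.pm e with h1 | h1
  · rw [h1]
  · rw [h1, neg_mul_neg]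

theorem lift3 {a : Alt 6} (ha : a ^ 3 = 1) : ∃ g, π g = a ∧ g ^ 3 = 1 := by
  obtain ⟨g, rfl⟩ := H.surj a
  refine ⟨g ^ 4, by rw [map_pow, pow_succ, ha, one_mul], H.inj _ ?_ ?_⟩
  · rw [← pow_mul, mul_comm, pow_mul, map_pow, map_pow, ha, one_pow]
  · rw [← pow_mul, mul_comm, pow_mul, map_pow]
    rcases H.ker (g ^ 3) (by rw [map_pow, ha]) with h | h
    · rw [h, one_pow]
    · rw [h, Even.neg_one_pow (by decide)]

theorem invol {d g : Γ} (hd : π d = dd) {a : Alt 6} (e : π g * a = a * dd) : ∃ k, τ (g * g) = τ k * τ (d * d) * τ k⁻¹ := by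
  obtain ⟨k, rfl⟩ := H.surj a
  refine ⟨k, ?_⟩
  rw [H.sq (g := g) (h := k * d * k⁻¹) (by rw [map_mul, map_mul, map_inv, hd, ← e, mul_inv_cancel_right]), ← map_mul,
    ← map_mul]
  congr 1
  group

variable [CharP K 3]

theorem uniq {g h : Γ} (e : π g = π h) (hg : g ^ 3 = 1) (hh : h ^ 3 = 1) (v : V) : τ g v = τ h v := by
  rcases H.pm e with h1 | h1
  · rw [h1]
  · have h2 : τ (g ^ 3) = -τ (h ^ 3) := by rw [map_pow, map_pow, h1, Odd.neg_pow (by decide)]
    rw [hg, hh, map_one] at h2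
    have h3 : v = -v := LinearMap.congr_fun h2 v
    rw [half (K := K) h3, map_zero, map_zero]

variable [IsAlgClosed K] [FiniteDimensional K V]

theorem plus (h8 : finrank K ↥U = 8) {d : Γ} (hd : π d = dd) (h1 : τ (d * d) = 1) :
    ∃ v ∈ U, v ≠ 0 ∧ ∀ g, ∃ c : K, τ g v = c • v := by
  choose x hx hx3 using fun i => H.lift3 (cc3 i)
  obtain ⟨φ, hφ⟩ := Lib.AltCarmichael.exists_hom (m := 4) (by norm_num) (x := fun i => if h : i < 4 then x ⟨i, h⟩ else 1)
    ⟨fun i hi => by rw [dif_pos hi, hx3], fun i hi j hj hij => by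
      rw [dif_pos hi, dif_pos hj, pow_two]
      have h2 : π (x ⟨i, hi⟩ * x ⟨j, hj⟩) * ww (tb ⟨i, hi⟩ ⟨j, hj⟩) = ww (tb ⟨i, hi⟩ ⟨j, hj⟩) * dd := by
        rw [map_mul, hx, hx]
        exact tb_ok _ _ fun h => hij (congrArg Fin.val h)
      obtain ⟨k, hk⟩ := H.invol hd h2
      refine H.inj _ ?_ (by rw [hk, h1, mul_one, ← map_mul, mul_inv_cancel, map_one])
      rw [map_mul, eq_mul_inv_of_mul_eq h2, ← pow_two, conj_pow, show dd ^ 2 = 1 by decide +kernel, mul_one,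
        mul_inv_cancel]⟩
  have h2 : ∀ a : Alt 6, π (φ a) = a := fun a => by
    have h3 : Lib.AltCarmichael.gen 4 (cyc 4) ≤ ((π.comp φ).eqLocus (MonoidHom.id _)).map (alternatingGroup (Fin 6)).subtype := by
      rw [Lib.AltCarmichael.gen_def, Subgroup.closure_le]
      rintro _ ⟨i, hi, rfl⟩
      refine ⟨⟨cyc 4 i, cyc_mem 4 i hi⟩, ?_, rfl⟩
      show π (φ _) = _
      rw [hφ i hi, dif_pos hi, hx]
      rfl
    rw [gen_cyc 4 (by norm_num)] at h3
    obtain ⟨b, hb, e⟩ := h3 a.2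
    rwa [← Subtype.ext e]
  by_contra hn
  refine Ln.false (B := B) (ρ := τ.comp φ) ⟨H.symm, fun a => H.orth _, fun S h3 h4 h5 => H.ts S h3 h4 fun g y hy => ?_,
    fun v hv h3 => ?_⟩ (fun a => H.inv _) h8
  · rcases H.pm (h2 (π g)).symm with h6 | h6
    · rw [h6]; exact h5 _ y hy
    · rw [h6]; exact S.neg_mem (h5 _ y hy)
  · by_contra h4
    refine hn ⟨v, hv, h4, fun g => ?_⟩
    have h5 : τ (φ (π g)) v = v := h3 (π g)
    rcases H.pm (h2 (π g)).symm with h6 | h6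
    · exact ⟨1, by rw [h6, h5, one_smul]⟩
    · exact ⟨-1, by rw [h6, LinearMap.neg_apply, h5, neg_one_smul]⟩

theorem minus (h0 : U ≠ ⊥) {d : Γ} (hd : π d = dd) (h1 : τ (d * d) = -1) : False := by
  obtain ⟨a, ha, a3⟩ := H.lift3 (a := uu) (by decide +kernel)
  obtain ⟨b, hb, b3⟩ := H.lift3 (a := u2) (by decide +kernel)
  obtain ⟨y, hy⟩ := H.surj yy
  have c3 : ∀ g : Γ, g ^ 3 = 1 → ∀ v, τ g (τ g (τ g v)) = v := fun g hg v => by
    rw [← tau_mul, ← tau_mul, ← pow_three', hg, map_one]; rfl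
  have cj : ∀ {g k h : Γ}, π g * π k = π k * π h → g ^ 3 = 1 → h ^ 3 = 1 → ∀ v, τ g (τ k v) = τ k (τ h v) :=
    fun {g k h} e hg hh v => by
      rw [H.uniq (g := g) (h := k * h * k⁻¹) (by rw [map_mul, map_mul, map_inv, ← e, mul_inv_cancel_right]) hg
        (by rw [conj_pow, hh, mul_one, mul_inv_cancel]), ← tau_mul, inv_mul_cancel_right, tau_mul]
  obtain ⟨w, hw, hw0, w1, w2⟩ := fix2 (c3 a a3) (c3 b b3)
    (cj (by rw [ha, hb]; decide +kernel) a3 a3) h0 (H.inv a) (H.inv b)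
  let N : Submodule K V := U ⊓ (LinearMap.eqLocus (τ a) LinearMap.id ⊓ LinearMap.eqLocus (τ b) LinearMap.id)
  have hN : ∀ x ∈ N, τ y x ∈ N := fun x hx => by
    have e1 : τ a x = x := hx.2.1
    have e2 : τ b x = x := hx.2.2
    refine ⟨H.inv y x hx.1, ?_, ?_⟩
    · show τ a (τ y x) = τ y x
      rw [cj (h := b * b) (by rw [map_mul, ha, hb, hy]; decide +kernel) a3
        (by rw [← pow_two, ← pow_mul, mul_comm, pow_mul, b3, one_pow]), tau_mul, e2, e2]
    · show τ b (τ y x) = τ y x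
      rw [cj (h := a) (by rw [ha, hb, hy]; decide +kernel) b3 a3, e1]
  have : Nontrivial N := ⟨⟨⟨w, hw, w1, w2⟩, 0, fun h => hw0 (congrArg Subtype.val h)⟩⟩
  obtain ⟨η, hη⟩ := Module.End.exists_eigenvalue ((τ y).restrict hN)
  obtain ⟨⟨v, hv, v1, v2⟩, hv'⟩ := hη.exists_hasEigenvector
  have v0 : v ≠ 0 := fun h => hv'.2 (Subtype.ext h)
  have v3 : τ y v = η • v := congrArg Subtype.val hv'.apply_eq_smul
  have v1' : τ a v = v := v1
  have v2' : τ b v = v := v2
  have s1 : B v v = 0 := by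
    obtain ⟨k, hk⟩ := H.invol (g := y * y) hd (a := ww [0, 0, 2, 0, 1]) (by rw [map_mul, hy]; decide +kernel)
    rw [h1, mul_neg, mul_one, neg_mul, ← map_mul, mul_inv_cancel, map_one] at hk
    have h2 := LinearMap.congr_fun hk v
    simp only [tau_mul, v3, map_smul, smul_smul, LinearMap.neg_apply, Module.End.one_apply] at h2
    have h3 : η * η * (η * η) = -1 := smul_left_injective K v0 (by
      show _ • v = (-1 : K) • v
      rw [neg_one_smul, ← h2])
    have h4 := H.orth y v v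
    simp only [v3, map_smul, LinearMap.smul_apply, smul_eq_mul] at h4
    refine half (K := K) ?_
    linear_combination (-1 - η * η) * h4 + B v v * h3
  have s2 : B v (τ d v) = 0 := by
    have h2 := H.orth d v (τ d v)
    rw [← tau_mul, h1, LinearMap.neg_apply, Module.End.one_apply, map_neg, H.symm] at h2
    exact half (K := K) h2.symm
  let St : Submonoid (Alt 6) :=
    { carrier := {s | ∀ g, π g = s → ∃ c : K, τ g v = c • v}
      one_mem' := fun g hg => by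
        rcases H.ker g hg with h | h
        · exact ⟨1, by rw [h, one_smul]; rfl⟩
        · exact ⟨-1, by rw [h, neg_one_smul]; rfl⟩
      mul_mem' := fun {s t} hs ht g hg => by
        obtain ⟨k, hk⟩ := H.surj t
        obtain ⟨c, hc⟩ := hs (g * k⁻¹) (by rw [map_mul, map_inv, hg, hk, mul_inv_cancel_right])
        obtain ⟨c', hc'⟩ := ht k hk
        exact ⟨c' * c, by rw [← inv_mul_cancel_right g k, tau_mul, hc', map_smul, hc, smul_smul]⟩ }
  have hS : ∀ (k : Γ) (c : K), τ k v = c • v → π k ∈ St := fun k c hc g hg => by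
    rcases H.pm hg with h | h
    · exact ⟨c, by rw [h, hc]⟩
    · exact ⟨-c, by rw [h, LinearMap.neg_apply, hc, neg_smul]⟩
  have m1 : uu ∈ St := ha ▸ hS a 1 (by rw [v1', one_smul])
  have m2 : u2 ∈ St := hb ▸ hS b 1 (by rw [v2', one_smul])
  have m3 : yy ∈ St := hy ▸ hS y η v3
  have hg : ∀ s i, ∃ j, ∃ t ∈ St, gs s * gg i = gg j * t := fun s i => by
    obtain ⟨j, rfl⟩ := (sg_bij s).2 i
    exact ⟨j, _, mul_mem (mul_mem (pow_mem m1 _) (pow_mem m2 _)) (pow_mem m3 _), tab s j⟩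
  have hB := ind (p := fun s => ∀ i, ∃ j, ∃ t ∈ St, s * gg i = gg j * t)
    (fun i => ⟨i, 1, one_mem _, by rw [one_mul, mul_one]⟩) (fun s s' hs hs' i => by
      obtain ⟨j, t, ht, e⟩ := hs' i
      obtain ⟨k, t', ht', e'⟩ := hs j
      exact ⟨k, t' * t, mul_mem ht' ht, by rw [mul_assoc, e, ← mul_assoc, e', mul_assoc]⟩) (hg 0) (hg 1) (hg 2)
  have s3 : ∀ g, B v (τ g v) = 0 := fun g => by
    obtain ⟨j, t, ht, e⟩ := hB (π g) 0
    rw [show gg 0 = 1 from rfl, mul_one] at e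
    rcases bru j with h2 | ⟨m, n, h2⟩
    · rw [h2, one_mul] at e
      obtain ⟨c, hc⟩ := ht g e
      rw [hc, map_smul, s1, smul_zero]
    · obtain ⟨k, hk⟩ := H.surj (uu ^ m.val * u2 ^ n.val)
      obtain ⟨c, hc⟩ := mul_mem (pow_mem m1 m.val) (pow_mem m2 n.val) k hk
      obtain ⟨c', hc'⟩ := ht (d⁻¹ * (k * g)) (by
        rw [map_mul, map_mul, map_inv, hk, e, ← mul_assoc _ (gg j), h2, hd, inv_mul_cancel_left])
      rw [← H.orth k, ← tau_mul, ← mul_inv_cancel_left d (k * g), tau_mul, hc', hc, map_smul, map_smul, map_smul,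
        LinearMap.smul_apply, s2, smul_zero, smul_zero]
  refine H.ts (Submodule.span K (Set.range fun g => τ g v)) (Submodule.span_le.2 ?_)
    ((Submodule.ne_bot_iff _).2 ⟨v, Submodule.subset_span ⟨1, LinearMap.congr_fun (map_one τ) v⟩, v0⟩) (fun g => span_inv ?_)
    (sing_span ?_)
  · rintro _ ⟨g, rfl⟩
    exact H.inv g v hv
  · rintro _ ⟨k, rfl⟩
    exact Submodule.subset_span ⟨g * k, tau_mul g k v⟩
  · rintro _ ⟨g, rfl⟩ _ ⟨k, rfl⟩
    show B (τ g v) (τ k v) = 0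
    rw [← mul_inv_cancel_left g k, tau_mul, H.orth, s3]

end Sit

end Ort

open Ort

/-- **ORT** -/
theorem ort : ORT.{u} := by
  intro K _ _ _ V _ _ _ B σ U hs hn ho hm h8 hi ht
  have hu : ∀ a, IsUnit (σ a) := fun a => (LinearMap.isUnit_iff_ker_eq_bot _).2 (LinearMap.ker_eq_bot'.2 fun x hx =>
    hn x fun y => by rw [← ho a, hx, map_zero]; rfl)
  have h1 : σ 1 = 1 ∨ σ 1 = -1 := by
    have h := hm 1 1
    rw [mul_one] at h
    rcases h with h | h
    · exact Or.inl ((hu 1).mul_left_cancel (by rw [mul_one, ← h]))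
    · exact Or.inr ((hu 1).mul_left_cancel (by rw [mul_neg, mul_one, ← neg_neg (σ 1 * σ 1), ← h]))
  have h2 : ∀ {a b : Alt 6} {f g : Module.End K V}, (f = σ a ∨ f = -σ a) → (g = σ b ∨ g = -σ b) →
      f * g = σ (a * b) ∨ f * g = -σ (a * b) := by
    rintro a b _ _ (rfl | rfl) (rfl | rfl) <;> rcases hm a b with h | h <;> simp [h]
  have h3 : ∀ {f : Module.End K V}, (f = σ 1 ∨ f = -σ 1) → f = 1 ∨ f = -1 := by
    rintro _ (rfl | rfl) <;> rcases h1 with h | h <;> simp [h]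
  let Γ : Subgroup (Alt 6 × (Module.End K V)ˣ) :=
    { carrier := {q | (q.2 : Module.End K V) = σ q.1 ∨ (q.2 : Module.End K V) = -σ q.1}
      one_mem' := by
        show (1 : Module.End K V) = σ 1 ∨ (1 : Module.End K V) = -σ 1
        rcases h1 with h | h <;> simp [h]
      mul_mem' := fun ha hb => h2 ha hb
      inv_mem' := fun {q} hq => by
        have h4 := h2 (a := q.1⁻¹) (Or.inl rfl) hq
        rw [inv_mul_cancel] at h4
        show ((q.2⁻¹ : (Module.End K V)ˣ) : Module.End K V) = σ q.1⁻¹ ∨ ((q.2⁻¹ : (Module.End K V)ˣ) : Module.End K V) = -σ q.1⁻¹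
        rcases h3 h4 with h | h
        · exact Or.inl (Units.inv_eq_of_mul_eq_one_left h)
        · exact Or.inr (Units.inv_eq_of_mul_eq_one_left (by rw [neg_mul, h, neg_neg])) }
  let π : Γ →* Alt 6 := (MonoidHom.fst _ _).comp Γ.subtype
  let τ : Γ →* Module.End K V := (Units.coeHom _).comp ((MonoidHom.snd _ _).comp Γ.subtype)
  have hτ : ∀ g, τ g = σ (π g) ∨ τ g = -σ (π g) := fun g => g.2
  have hσ : ∀ a, ∃ g, τ g = σ a := fun a => ⟨⟨(a, (hu a).unit), Or.inl rfl⟩, rfl⟩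
  have H : Sit B π τ U :=
    { surj := fun a => ⟨⟨(a, (hu a).unit), Or.inl rfl⟩, rfl⟩
      ker := fun g hg => h3 (hg ▸ hτ g)
      inj := fun g hg hg' => Subtype.ext (Prod.ext hg (Units.ext hg'))
      symm := hs
      orth := fun g x y => by rcases hτ g with h | h <;> simp [h, ho]
      inv := fun g x hx => by
        rcases hτ g with h | h
        · rw [h]; exact hi _ x hx
        · rw [h]; exact U.neg_mem (hi _ x hx)
      ts := fun S h4 h5 h6 => ht S h4 h5 fun a => by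
        obtain ⟨g, hg⟩ := hσ a
        rw [← hg]
        exact h6 g }
  obtain ⟨d, hd⟩ := H.surj dd
  rcases H.ker (d * d) (by rw [map_mul, hd]; decide +kernel) with h | h
  · obtain ⟨v, hv, h4, h5⟩ := H.plus h8 hd h
    exact ⟨v, hv, h4, fun a => by
      obtain ⟨g, hg⟩ := hσ a
      rw [← hg]
      exact h5 g⟩
  · exact (H.minus (fun e => by rw [e, finrank_bot] at h8; omega) hd h).elim

end Cfsg.Agent.E8A.D44
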