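import Cfsg.Agent.E8A.D44.Asm
import Cfsg.Agent.E8A.D44.Ort
import Cfsg.Agent.E8A.D44.Nf
import Cfsg.Agent.E8A.D44.Ns

/-!
# The box D44 (helper43)
-/

set_option autoImplicit false

namespace Cfsg.Agent.E8A.D44

universe u

theorem d44 : C63.D44.{u} := d44_of ort nf ns

end Cfsg.Agent.E8A.D44
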