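import Cfsg.Agent.E8A.C63.Iface

/-!
# D44: the abstract box (helper43)
-/

set_option autoImplicit false

namespace Cfsg.Agent.E8A.D44

open Cfsg Cfsg.Lie Module

universe u

/-- **ORT**: an orthogonal projective representation of `A₆` of dimension 8 in characteristic 3 without totally singular
invariant subspaces has an invariant line -/
def ORT : Prop := ∀ (K : Type u) [Field K] [IsAlgClosed K] [CharP K 3] (V : Type u) [AddCommGroup V] [Module K V]
  [FiniteDimensional K V] (B : V →ₗ[K] V →ₗ[K] K) (σ : Alt 6 → Module.End K V) (U : Submodule K V),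
  (∀ x y, B x y = B y x) → (∀ x, (∀ y, B x y = 0) → x = 0) → (∀ a x y, B (σ a x) (σ a y) = B x y) →
  (∀ a b, σ (a * b) = σ a * σ b ∨ σ (a * b) = -(σ a * σ b)) → finrank K ↥U = 8 → (∀ a, ∀ x ∈ U, σ a x ∈ U) →
  (∀ S ≤ U, S ≠ ⊥ → (∀ a, ∀ x ∈ S, σ a x ∈ S) → (∀ x ∈ S, ∀ y ∈ S, B x y = 0) → False) →
  ∃ v ∈ U, v ≠ 0 ∧ ∀ a, ∃ c : K, σ a v = c • v

end Cfsg.Agent.E8A.D44
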