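import Cfsg.Agent.E8A.D44.Link
import Cfsg.Agent.E8A.D44.Iface
import Cfsg.Agent.E8A.C63.ModA

/-!
# D44 from the boxes (helper43)
-/

set_option autoImplicit false
set_option maxRecDepth 100000

namespace Cfsg.Agent.E8A.D44

open Cfsg Cfsg.Lie Module
open Cfsg.Agent.E8A.C63

universe u

theorem all_of_sq {P : Alt 6 → Prop} (hm : ∀ a b, P a → P b → P (a * b)) (hs : ∀ a, P (a * a)) (a : Alt 6) : P a := by
  refine Md.ind (one_mul (1 : Alt 6) ▸ hs 1) hm ?_ ?_ ?_ a
  · rw [show uu = (uu * uu) * (uu * uu) by decide]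
    exact hs _
  · rw [show yy = ((dd * uu) * (dd * uu)) * ((uu * yy * uu * dd * yy * uu) * (uu * yy * uu * dd * yy * uu)) by decide]
    exact hm _ _ (hs _) (hs _)
  · rw [show dd = (uu * yy * yy * dd * uu) * (uu * yy * yy * dd * uu) by decide]
    exact hs _

theorem rg1 {R : Type*} [Ring R] {M x : R} (h : M * x = x * M) : M * -x = -x * M := by rw [mul_neg, neg_mul, h]

theorem rg2 {R : Type*} [Ring R] {M x : R} (e : M * x = -(x * M)) : M * (x * x) = x * x * M := by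
  rw [← mul_assoc, e, neg_mul, mul_assoc, e, mul_neg, neg_neg, mul_assoc]

variable {K : Type u} [Field K]

variable (K) in
/-- the vectors supported on `J` -/
def UJ (J : Finset (Fin 16)) : Submodule K (V16 K) := LinearMap.ker (LinearMap.funLeft K K (Subtype.val : ↥Jᶜ → Fin 16))

theorem mem_UJ {J : Finset (Fin 16)} {x : V16 K} : x ∈ UJ K J ↔ ∀ i, i ∉ J → x i = 0 :=
  ⟨fun h i hi => congrFun h ⟨i, Finset.mem_compl.2 hi⟩, fun h => funext fun i => h i (Finset.mem_compl.1 i.2)⟩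

theorem finrank_UJ {J : Finset (Fin 16)} (h : J.card = 8) : finrank K ↥(UJ K J) = 8 := by
  have h1 := LinearMap.finrank_range_add_finrank_ker (LinearMap.funLeft K K (Subtype.val : ↥Jᶜ → Fin 16))
  rw [LinearMap.range_eq_top.2 (LinearMap.funLeft_surjective_of_injective _ _ _ Subtype.val_injective), finrank_top,
    finrank_fintype_fun_eq_card, finrank_fintype_fun_eq_card, Fintype.card_coe, Finset.card_compl, h, Fintype.card_fin] at h1
  exact Nat.add_left_cancel (n := 8) h1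

variable [CharP K 3] {ψ : Alt 6 →* G8 K} {σ : Alt 6 → Module.End K (V16 K)}

theorem lk_mul (hσ : ∀ a, Lk (ψ a) (σ a)) (a b : Alt 6) : σ (a * b) = σ a * σ b ∨ σ (a * b) = -(σ a * σ b) :=
  ((hσ a).mul (hσ b)).uniq (map_mul ψ a b ▸ hσ (a * b))

theorem lk_comm (hσ : ∀ a, Lk (ψ a) (σ a)) {w : G8 K} {M : Module.End K (V16 K)} (hw : Lk w M) (hc : ∀ a, Commute w (ψ a))
    (a : Alt 6) : M * σ a = σ a * M := by
  refine all_of_sq (P := fun a => M * σ a = σ a * M) (fun a b h1 h2 => ?_) (fun a => ?_) a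
  · have h3 : M * (σ a * σ b) = σ a * σ b * M := by rw [← mul_assoc, h1, mul_assoc, h2, mul_assoc]
    rcases lk_mul hσ a b with e | e
    · rw [e, h3]
    · rw [e]
      exact rg1 h3
  · have h3 : M * (σ a * σ a) = σ a * σ a * M := by
      rcases ((hσ a).mul hw).uniq ((hc a).eq ▸ hw.mul (hσ a)) with e | e
      · rw [← mul_assoc, e, mul_assoc, e, mul_assoc]
      · exact rg2 e
    rcases lk_mul hσ a a with e | e
    · rw [e, h3]
    · rw [e]
      exact rg1 h3

theorem inv_UJ (hσ : ∀ a, Lk (ψ a) (σ a)) {w : G8 K} (hc : ∀ a, Commute w (ψ a)) {J : Finset (Fin 16)}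
    (hb : ∀ i, bar i ∈ J ↔ i ∈ J) (hw : ∀ i j, act w (cv K i j) = if (i ∈ J ↔ j ∈ J) then cv K i j else -cv K i j)
    (a : Alt 6) : ∀ x ∈ UJ K J, σ a x ∈ UJ K J := by
  have h1 : Lk w (LinearMap.mulLeft K fun i => if i ∈ J then (1 : K) else -1) := lk_diag (fun i => by
    simp only [hb]
    split_ifs <;> simp) fun i j => by
      rw [hw]
      by_cases e1 : i ∈ J <;> by_cases e2 : j ∈ J <;> simp [e1, e2]
  intro x hx
  have h2 := LinearMap.congr_fun (lk_comm hσ h1 hc a) x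
  rw [Module.End.mul_apply, Module.End.mul_apply, show (LinearMap.mulLeft K fun i => if i ∈ J then (1 : K) else -1) x = x from
    funext fun i => by
      show (if i ∈ J then (1 : K) else -1) * x i = x i
      split_ifs with e
      · rw [one_mul]
      · rw [mem_UJ.1 hx i e, mul_zero]] at h2
  refine mem_UJ.2 fun i hi => ?_
  have h3 : (if i ∈ J then (1 : K) else -1) * σ a x i = σ a x i := congrFun h2 i
  rw [if_neg hi] at h3
  linear_combination h3 + σ a x i * three_K (K := K)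

theorem d44_of (hO : ORT.{u}) (hN : NF.{u}) (hS : NS.{u}) : D44.{u} := by
  intro F _ _ _ ψ hψ _ s t hs ht hst ds dt dst cs ct
  have : CharP (Kb F) 3 := charP_of_injective_algebraMap (algebraMap F (Kb F)).injective 3
  obtain ⟨c, I, h1, h2, h3, h4⟩ := hN F s t hs ht hst ds dt dst
  have hψ' := hψ.cj c
  choose σ hσ using fun a => lift F _ (cj c ψ a) h1 ((cs a).symm.conj c)
  have hc : ∀ a, Commute (c * t * c⁻¹) (cj c ψ a) := fun a => (ct a).conj c
  have key : ∀ J : Finset (Fin 16), J.card = 8 → (∀ i, bar i ∈ J ↔ i ∈ J) → (∀ i j, (i ∈ J ↔ j ∈ J) ↔ (i ∈ I ↔ j ∈ I)) →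
      ∃ v ∈ UJ (Kb F) J, v ≠ 0 ∧ ∀ a, ∃ c, σ a v = c • v := fun J k1 k2 k3 =>
    hO _ _ (fm _) σ _ fm_comm (fun _ => fm_nd) (fun a => (hσ a).orth) (lk_mul hσ) (finrank_UJ k1)
      (inv_UJ hσ hc k2 fun i j => by simp only [h4, k3]) fun S _ => hS F _ hψ'.par σ hσ S
  obtain ⟨v, hv, v0, kv⟩ := key I h2 h3 fun _ _ => Iff.rfl
  obtain ⟨v', hv', v0', kv'⟩ := key Iᶜ (by rw [Finset.card_compl, h2]; rfl) (fun i => by
    simp only [Finset.mem_compl, h3]) fun i j => by simp only [Finset.mem_compl, not_iff_not]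
  have h5 := hψ'.fx (be _ v v') (line_fix (rp (cj c ψ)) fun a => by
    obtain ⟨x, hx⟩ := kv a
    obtain ⟨y, hy⟩ := kv' a
    exact ⟨y * x, by rw [rp_apply, (hσ a).act, hx, hy, map_smul, map_smul, LinearMap.smul_apply, smul_smul]⟩)
  obtain ⟨i, hi⟩ := Function.ne_iff.1 v0
  obtain ⟨j, hj⟩ := Function.ne_iff.1 v0'
  have h6 := be_eq_zero h5 i j
  rw [mem_UJ.1 hv' i fun e => hi (mem_UJ.1 hv i (Finset.mem_compl.1 e)), mul_zero] at h6
  exact mul_ne_zero hi hj h6

end Cfsg.Agent.E8A.D44
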