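import Cfsg.Agent.E8A.D44.So16
import Cfsg.Agent.E8A.C63.Basic

/-!
# D44: elements which act through the orthogonal group, boxes (helper43)
-/

set_option autoImplicit false

namespace Cfsg.Agent.E8A.D44

open Cfsg Cfsg.Lie Module
open Cfsg.Agent.E8A.Reg5.Cls (dz)
open Cfsg.Agent.E8A.C63 (fd NoPar)

universe u

/-- `g` acts on the subalgebra through the orthogonal map `M` -/
structure Lk {K : Type u} [Field K] (g : G8 K) (M : Module.End K (V16 K)) : Prop where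
  orth : ∀ x y, fm K (M x) (M y) = fm K x y
  act : ∀ x y, act g (be K x y) = be K (M x) (M y)

/-- **NF**: the normal form of the four-group -/
def NF : Prop := ∀ (F : Type u) [Field F] [Finite F] [CharP F 3] (s t : G8 (Kb F)), s ^ 2 = 1 → t ^ 2 = 1 → Commute s t →
  fd s = 120 → fd t = 120 → fd (s * t) = 120 → ∃ (c : G8 (Kb F)) (I : Finset (Fin 16)),
    mx (c * s * c⁻¹) = dz (-1) (Pi.single 0 1) ∧ I.card = 8 ∧ (∀ i, bar i ∈ I ↔ i ∈ I) ∧
    ∀ i j, act (c * t * c⁻¹) (cv (Kb F) i j) = if (i ∈ I ↔ j ∈ I) then cv (Kb F) i j else -cv (Kb F) i j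

/-- **NS**: no totally singular invariant subspace -/
def NS : Prop := ∀ (F : Type u) [Field F] [Finite F] [CharP F 3] (ψ : Alt 6 →* G8 (Kb F)), NoPar ψ →
  ∀ σ : Alt 6 → Module.End (Kb F) (V16 (Kb F)), (∀ a, Lk (ψ a) (σ a)) → ∀ S : Submodule (Kb F) (V16 (Kb F)), S ≠ ⊥ →
  (∀ a, ∀ x ∈ S, σ a x ∈ S) → (∀ x ∈ S, ∀ y ∈ S, fm (Kb F) x y = 0) → False

/-- **LIFT**: the centralizer of the standard involution -/
def LIFT : Prop := ∀ (F : Type u) [Field F] [Finite F] [CharP F 3] (z g : G8 (Kb F)), mx z = dz (-1) (Pi.single 0 1) →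
  Commute g z → ∃ M, Lk g M

end Cfsg.Agent.E8A.D44
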