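import Cfsg.Agent.E8A.D44.Iface2

/-!
# D44: the elements which act through the orthogonal group (helper43)

* `Lk.one`, `Lk.mul`, `Lk.neg`, `Lk.inj`, `Lk.surj`, `Lk.inv`, `Lk.uniq`;
* `TT a b`, `lk_xr` (root elements), `lk_diag`, `lk_mc` (the torus); `lift : LIFT`.
-/

set_option autoImplicit false
set_option maxRecDepth 100000

namespace Cfsg.Agent.E8A.D44

open CoxeterSystem Cfsg Cfsg.Lie Module
open Cfsg.Agent.ChevalleyStructure Cfsg.Agent.ChevalleyStructure.CoxeterGeom
  Cfsg.Agent.ChevalleyStructure.CoxeterGeomTypes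
open Cfsg.Agent.Tits.Roots Cfsg.Agent.Nodes.Reps Cfsg.Agent.Nodes.BNOf Cfsg.Agent.Nodes.RGDChev
open Cfsg.Agent.KFacts.RgdChevCoord Cfsg.Agent.H129.TorusChar
open Cfsg.Agent.H942.E8Tab (e8T)
open Cfsg.Agent.H288.E8L (Q8 wt wt_inl wt_inr)
open Cfsg.Agent.E8A.Par (op kf_ee act_xr)
open Cfsg.Agent.E8A.Reg5.Cls (ex dz)
open Cfsg.Agent.E8A.Two Cfsg.Agent.E8A.TwoH

universe u

variable {K : Type u} [Field K]

namespace Lk

variable {g g' : G8 K} {M N : Module.End K (V16 K)}

theorem one : Lk (1 : G8 K) 1 := ⟨fun _ _ => rfl, fun _ _ => act_one _⟩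

theorem mul (h : Lk g M) (h' : Lk g' N) : Lk (g * g') (M * N) :=
  ⟨fun x y => (h.orth _ _).trans (h'.orth x y), fun x y => by rw [act_mul, h'.act, h.act]; rfl⟩

theorem neg (h : Lk g M) : Lk g (-M) :=
  ⟨fun x y => by simpa using h.orth x y, fun x y => by simpa using h.act x y⟩

theorem inj (h : Lk g M) : Function.Injective M :=
  (injective_iff_map_eq_zero M).2 fun x hx => fm_nd fun y => by rw [← h.orth, hx, map_zero, LinearMap.zero_apply]

theorem surj (h : Lk g M) : Function.Surjective M := LinearMap.injective_iff_surjective.1 h.inj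

theorem inv (h : Lk g M) : ∃ M', Lk g⁻¹ M' ∧ (∀ x, M (M' x) = x) ∧ ∀ x, M' (M x) = x := by
  let e := LinearEquiv.ofBijective M ⟨h.inj, h.surj⟩
  have h1 : ∀ x, M (e.symm x) = x := e.apply_symm_apply
  refine ⟨e.symm.toLinearMap, ⟨fun x y => ?_, fun x y => ?_⟩, h1, e.symm_apply_apply⟩
  · rw [← h.orth]
    exact congrArg₂ (fun a b => fm K a b) (h1 x) (h1 y)
  · conv_lhs => rw [← h1 x, ← h1 y, ← h.act, act_inv]
    rfl

end Lk

/-- the elements which act through the orthogonal group -/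
def CS : Subgroup (G8 K) where
  carrier := {g | ∃ M, Lk g M}
  one_mem' := ⟨_, Lk.one⟩
  mul_mem' := fun ⟨_, h⟩ ⟨_, h'⟩ => ⟨_, h.mul h'⟩
  inv_mem' := fun ⟨_, h⟩ => h.inv.imp fun _ h' => h'.1

/-- the skew endomorphism of `a ∧ b` -/
def TT (a b : V16 K) : Module.End K (V16 K) := (fm K b).smulRight a - (fm K a).smulRight b

theorem TT_apply (a b x : V16 K) : TT a b x = fm K b x • a - fm K a x • b := rfl

theorem fm_od {i j : Fin 16} (h : Od i j) : fm K (vb K i) (vb K j) = 0 := by rw [fm_vb, vb_apply, if_neg h.2.symm]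

theorem fm_vv (i : Fin 16) : fm K (vb K i) (vb K i) = 0 := by rw [fm_vb, vb_apply, if_neg (bar_ne i)]

theorem lk_diag {g : G8 K} {d : Fin 16 → K} (hd : ∀ i, d i * d (bar i) = 1)
    (h : ∀ i j, act g (cv K i j) = (d i * d j) • cv K i j) : Lk g (LinearMap.mulLeft K d) := by
  refine ⟨fun x y => ?_, fun x y => ?_⟩
  · rw [fm_apply, fm_apply]
    refine Finset.sum_congr rfl fun i _ => ?_
    show d i * x i * (d (bar i) * y (bar i)) = _
    linear_combination x i * y (bar i) * hd i
  · rw [be_apply, be_apply, act_sum]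
    refine Finset.sum_congr rfl fun i _ => ?_
    rw [act_sum]
    refine Finset.sum_congr rfl fun j _ => ?_
    rw [act_smul, act_smul, h]
    show _ = (d i * x i) • (d j * y j) • cv K i j
    module

/-- the weights of the natural module, shifted into the root lattice -/
def F2 (i : Fin 16) : Q8 := fun k => (E2 0 k + E2 i k) / 2

theorem two_F2 : ∀ i, (2 : ℤ) • F2 i = E2 0 + E2 i := by decide +kernel

theorem lk_mc [IsAlgClosed K] {t : G8 K} {φ : Q8 → K} (hφ : IsMC φ) (ht : ∀ v i, act t v i = φ (wt i) * v i) :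
    ∃ M, Lk t M := by
  obtain ⟨s, hs⟩ := IsAlgClosed.exists_pow_nat_eq (φ (E2 0)) two_pos
  have h0 := hφ.ne_zero (E2 0)
  have key : ∀ i j a, (2 : ℤ) • a = E2 i + E2 j → φ (F2 i) / s * (φ (F2 j) / s) = φ a := fun i j a ha => by
    rw [div_mul_div_comm, ← sq, hs, ← hφ.add, show F2 i + F2 j = a + E2 0 from two_inj (by
      rw [smul_add, smul_add, two_F2, two_F2, ha, two_smul]; abel), hφ.add, mul_div_cancel_right₀ _ h0]
  have k0 : ∀ i, φ (F2 i) / s * (φ (F2 (bar i)) / s) = 1 := fun i => by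
    rw [key i _ 0 (by rw [E2_bar, add_neg_cancel, smul_zero]), hφ.zero]
  refine ⟨_, lk_diag (d := fun i => φ (F2 i) / s) k0 fun i j => funext fun m => ?_⟩
  rw [ht, Pi.smul_apply, smul_eq_mul]
  rcases od_cases i j with rfl | rfl | h
  · rw [cv_self, Pi.zero_apply, mul_zero, mul_zero]
  · rw [k0, cv_bar]
    rcases m with m | r
    · rw [wt_inl, hφ.zero]
    · rw [inT_hq, mul_zero, mul_zero]
  · rw [key i j _ (vec_rt i j h), cv_od h, Pi.smul_apply]
    by_cases e : m = Sum.inr (rt i j)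
    · rw [e, wt_inr]
    · rw [ee_ne e, smul_zero, mul_zero, mul_zero]

variable [CharP K 3]

theorem br_TT (a b x y : V16 K) : br (be K a b) (be K x y) = be K (TT a b x) y + be K x (TT a b y) := by
  rw [br_be, TT_apply, TT_apply]
  simp only [map_sub, map_smul, LinearMap.sub_apply, LinearMap.smul_apply, be_anti a x, be_anti b x]
  module

theorem lk_xr {i j : Fin 16} (h : Od i j) (t : K) :
    Lk (xr (rt i j) t) (1 + (t * sg i j) • TT (vb K i) (vb K j)) := by
  have h1 := sg_sq (K := K) h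
  refine ⟨fun x y => ?_, fun x y => ?_⟩
  · simp only [LinearMap.add_apply, Module.End.one_apply, LinearMap.smul_apply, TT_apply, map_add, map_sub, map_smul,
      LinearMap.sub_apply, smul_eq_mul, fm_od h, fm_od (od_symm h), fm_vv, fm_comm x (vb K i), fm_comm x (vb K j)]
    ring
  · have h2 : ee K (Sum.inr (rt i j)) = (sg i j : K) • be K (vb K i) (vb K j) := by
      rw [be_vb, cv_od h, smul_smul, h1, one_smul]
    rw [act_xr, kf_ee, op_rt h, be_rt _ _ (od_bar h), (tab_rt i j h).2.2.1, h2, br_smul_left, br_TT]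
    have h3 : be K (TT (vb K i) (vb K j) x) (TT (vb K i) (vb K j) y) =
        -(x (bar j) * y (bar i) - x (bar i) * y (bar j)) • be K (vb K i) (vb K j) := by
      simp only [TT_apply, map_sub, map_smul, LinearMap.sub_apply, LinearMap.smul_apply, be_self, fm_vb,
        be_anti (vb K i) (vb K j)]
      module
    simp only [LinearMap.add_apply, Module.End.one_apply, LinearMap.smul_apply, map_add, map_smul, h3]
    module

theorem Lk.pm {N : Module.End K (V16 K)} (h : Lk (1 : G8 K) N) : N = 1 ∨ N = -1 := by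
  have h1 : ∀ k l i j, N (vb K k) i * N (vb K l) j - N (vb K k) j * N (vb K l) i =
      vb K k i * vb K l j - vb K k j * vb K l i := fun k l i j => be_inj (by rw [← h.act, act_one]) i j
  have h2 : ∀ k l, k ≠ l → N (vb K k) k * N (vb K l) l - N (vb K k) l * N (vb K l) k = 1 := fun k l e => by
    rw [h1, vb_apply, vb_apply, vb_apply, if_pos rfl, if_pos rfl, if_neg e.symm, zero_mul, mul_one, sub_zero]
  have h3 : ∀ k i, i ≠ k → N (vb K k) i = 0 := fun k i e => by
    obtain ⟨l, l1, l2⟩ : ∃ l, l ≠ k ∧ l ≠ i := by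
      revert k i
      decide
    have e1 := h1 k l i l
    have e2 := h1 k l k i
    simp only [vb_apply, if_neg e, if_neg l1, if_neg l2.symm, zero_mul, mul_zero, sub_zero] at e1 e2
    linear_combination N (vb K k) k * e1 + N (vb K k) l * e2 - N (vb K k) i * h2 k l l1.symm
  have h4 : ∀ k l, k ≠ l → N (vb K k) k * N (vb K l) l = 1 := fun k l e => by
    rw [← h2 k l e, h3 k l e.symm, zero_mul, sub_zero]
  have h5 : ∀ k, N (vb K k) k = N (vb K 0) 0 := fun k => by
    obtain ⟨l, l1, l2⟩ : ∃ l, l ≠ k ∧ l ≠ 0 := by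
      revert k
      decide
    linear_combination N (vb K 0) 0 * h4 l k l1 - N (vb K k) k * h4 l 0 l2
  have h6 : ∀ x, N x = N (vb K 0) 0 • x := fun x => by
    induction x using ind with
    | h0 k =>
      funext i
      rw [Pi.smul_apply, vb_apply k i, smul_eq_mul]
      split_ifs with e
      · rw [e, h5, mul_one]
      · rw [h3 k i e, mul_zero]
    | ha x y e1 e2 => rw [map_add, e1, e2, smul_add]
    | hs c x e1 => rw [map_smul, e1, smul_comm]
  have h7 := h4 0 1 (by decide)
  rw [h5 1, mul_self_eq_one_iff] at h7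
  exact h7.imp (fun e => LinearMap.ext fun x => by rw [h6, e, one_smul]; rfl) fun e => LinearMap.ext fun x => by
    rw [h6, e, neg_one_smul]; rfl

theorem Lk.uniq {g : G8 K} {M N : Module.End K (V16 K)} (h : Lk g M) (h' : Lk g N) : N = M ∨ N = -M := by
  obtain ⟨M', h1, h2, -⟩ := h.inv
  have h3 := h1.mul h'
  rw [inv_mul_cancel] at h3
  refine h3.pm.imp (fun e => LinearMap.ext fun x => ?_) fun e => LinearMap.ext fun x => ?_
  · exact (h2 _).symm.trans (congrArg M (LinearMap.congr_fun e x))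
  · exact (h2 _).symm.trans ((congrArg M (LinearMap.congr_fun e x)).trans (map_neg M x))

theorem lift : LIFT.{u} := by
  intro F _ _ _ t g ht hg
  have : CharP (Kb F) 3 := charP_of_injective_algebraMap (algebraMap F (Kb F)).injective 3
  have : Fact (Nat.Prime 3) := ⟨Nat.prime_three⟩
  have hω : IsPrimitiveRoot (-1 : Kb F) 2 := IsPrimitiveRoot.neg_one 3 (by norm_num)
  have h0 := hω.ne_zero (by norm_num)
  have h3 : t ^ 2 = 1 := Par.ext_act fun v => funext fun i => by
    rw [sq, act_mul, act_dz ht, act_dz ht, act_one, ← mul_assoc, ← mul_zpow, neg_one_mul, neg_neg, one_zpow, one_mul]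
  obtain ⟨t', ht', e⟩ := exists_tz h0 (Pi.single 0 1)
  obtain rfl : t = t' := mx_injective (ht.trans e.symm)
  have hFinW : Finite CoxeterMatrix.E₈.Group := finite_W e8T CoxeterMatrix.E₈.toCoxeterSystem
  have hFrm := H897.T5UntwRow.par8.frm (CoxeterMatrix.E₈.toCoxeterSystem) e8T.isCartan
    (fun i j => (H897.T5UntwRow.n8 i j).1) (fun i j => (H897.T5UntwRow.n8 i j).2)
  have hcon := H897.T5Cent.con_of_frm e8T CoxeterMatrix.E₈.toCoxeterSystem (locFinKb F) 3 Nat.prime_two (by norm_num)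
    BpExc.FamInst.inv_E8 (Nat.coprime_one_left _) hFrm
  obtain ⟨m, hm, s, hs, rfl⟩ := H897.T5Cent.cent_form e8T CoxeterMatrix.E₈.toCoxeterSystem (locFinKb F) 3 hcon ht' h3 hg.eq
  refine mul_mem (S := Subgroup _) (s := CS) (sup_le_of (fun a ha => ha.1) (fun r hr c => ?_) hm)
    (lk_mc (isMC_cX e8T hs) (act_TT hs))
  have h1 := hr.2 t rfl
  have h2 := congrFun (congrFun ((mx_TT ht').symm.trans ht) (Sum.inr r)) (Sum.inr r)
  rw [dz, Matrix.diagonal_apply_eq, Matrix.diagonal_apply_eq, wt_inr, cX_root e8T _ ht' hr.1, h1, eq_comm,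
    hω.zpow_eq_one_iff_dvd, ex_single] at h2
  obtain ⟨i, j, hij, rfl⟩ := exists_rt r h2
  exact ⟨_, lk_xr hij c⟩

end Cfsg.Agent.E8A.D44
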