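import Cfsg.Agent.E8A.TwoB.Gl9

/-!
# The subalgebra of type `D₈` of `E₈` in characteristic 3 (helper43)

* `fm` : the split symmetric form on `K¹⁶`; `be a b` : the vector `a ∧ b`; `br_be`, `be_rt`, `be_inj`.
-/

set_option autoImplicit false
set_option maxRecDepth 100000

namespace Cfsg.Agent.E8A.D44

open CoxeterSystem Cfsg Cfsg.Lie Module
open Cfsg.Agent.ChevalleyStructure Cfsg.Agent.ChevalleyStructure.CoxeterGeom
  Cfsg.Agent.ChevalleyStructure.CoxeterGeomTypes
open Cfsg.Agent.Tits.Roots Cfsg.Agent.Nodes.Reps Cfsg.Agent.Nodes.BNOf Cfsg.Agent.Nodes.RGDChev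
open Cfsg.Agent.H288.E8L (Q8 wt wt_inl wt_inr)
open Cfsg.Agent.H897.T5Lat (bf_apply)
open Cfsg.Agent.E8A.Frm (B0)
open Cfsg.Agent.E8A.Par (op vec_op op_ne adm_ee mx_xr_entry)
open Cfsg.Agent.E8A.TwoH
open Cfsg.Agent.E8A.TwoB (rl_sum rl_ee)

universe u

/-! ### tables -/

/-- the opposite index -/
def bar (i : Fin 16) : Fin 16 := i + 8

/-- twice the weights of the natural module -/
def E2 (i : Fin 16) : Q8 := fun k => ([[-4, -5, -7, -10, -8, -6, -4, -2], [0, 1, 1, 2, 2, 2, 2, 2], [0, 1, 1, 2, 2, 2, 2, 0],
  [0, 1, 1, 2, 2, 2, 0, 0], [0, 1, 1, 2, 2, 0, 0, 0], [0, 1, 1, 2, 0, 0, 0, 0], [0, 1, 1, 0, 0, 0, 0, 0],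
  [0, 1, -1, 0, 0, 0, 0, 0], [4, 5, 7, 10, 8, 6, 4, 2], [0, -1, -1, -2, -2, -2, -2, -2], [0, -1, -1, -2, -2, -2, -2, 0],
  [0, -1, -1, -2, -2, -2, 0, 0], [0, -1, -1, -2, -2, 0, 0, 0], [0, -1, -1, -2, 0, 0, 0, 0], [0, -1, -1, 0, 0, 0, 0, 0],
  [0, -1, 1, 0, 0, 0, 0, 0]].getD i []).getD k 0

/-- the roots -/
def rtT : ℕ := 48513171899990077969211821474462936360664206715423560366785420959076117593222966462936805027663676929559144205403092877008031244265926903814720595341075710337779273721315893596034578249638590503856096151188477488663224770524658265351496978275509964873855288214705607337088805863627085401023245455931280671714046246441151929596377826956290857283280240502165533625897801895494766694037100269131147840813043201472565024160045994541895678185150692073124369762842229219373632354765048926227204636411777841604881952721578402970472845034753833580851269156815965701319291914202460575461904768689324253156658531559443008768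

/-- the index pairs of the roots -/
def ivT : ℕ := 48045686918373542995674096114833034879375003958201210309530093978889490859588048044762533013251984818726681727517114066141351294081929728928781190864756295539614342908196538127797701791376770069215850089501943865987358271324682800749604055443113840482112468484867611264970199248862983713255633850765219482577041327602566223641133116763372023857842207798375336504846115251002853805276238542689483679033015865537339704066483662470316112605440326732401381506794973961398908006368166183202622753867267749632455734170650089322243636939014522994492103387285879351638223597966690656400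

/-- the root `ε_i + ε_j` -/
def rt (i j : Fin 16) : Fin chevE8.nroots := ⟨rtT / 256 ^ (16 * i.val + j.val) % 256 % 240, Nat.mod_lt _ (by norm_num)⟩

/-- the signs -/
def sg (i j : Fin 16) : ℤ :=
  if 38070544132968865490831659509705684862082606189903759826337430761845409797120 / 2 ^ (16 * i.val + j.val) % 2 = 1
  then -1 else 1

/-- the structure constants -/
def nn (r s u : ℕ) : ℤ := ((chevE8.chainCoeff r s u).map fun km => km.2).sum

/-- `ε_i + ε_j` is a root -/
abbrev Od (i j : Fin 16) : Prop := j ≠ i ∧ j ≠ bar i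

theorem bar_bar : ∀ i, bar (bar i) = i := by decide

theorem bar_ne : ∀ i, bar i ≠ i := by decide

theorem eq_bar : ∀ {i j : Fin 16}, i = bar j ↔ j = bar i := by decide

theorem bar_inj : ∀ {i j : Fin 16}, bar i = bar j ↔ i = j := by decide

theorem E2_bar : ∀ i, E2 (bar i) = -E2 i := by decide +kernel

theorem B0_E0 : ∀ i j : Fin 16, (∑ k, ∑ l, E2 i k * cartanOf chevE8 8 k l * E2 j l) =
    4 * ((if i = j then 1 else 0) - if i = bar j then 1 else 0) := by decide +kernel

theorem B0_E (i j : Fin 16) : B0 (E2 i) (E2 j) = 4 * ((if i = j then 1 else 0) - if i = bar j then 1 else 0) := by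
  rw [bf_apply, B0_E0]

theorem vec_rt : ∀ i j, Od i j → (2 : ℤ) • vec chevE8 8 (rt i j) = E2 i + E2 j := by decide +kernel

theorem tab_rt : ∀ i j, Od i j → rt j i = rt i j ∧ sg j i = -sg i j ∧ sg (bar j) (bar i) = sg i j ∧ sg i j * sg i j = 1 := by
  decide +kernel

theorem nn_rt : ∀ i j, Od i j → ∀ l, Od (bar j) l → Od i l →
    nn (rt i j) (rt (bar j) l) (rt i l) * sg i j * sg (bar j) l = sg i l := by decide +kernel

theorem exists_rt0 : ∀ r : Fin chevE8.nroots, 2 ∣ vec chevE8 8 r 0 →
    Od (Fin.ofNat 16 (ivT / 256 ^ r.val % 256 / 16)) (Fin.ofNat 16 (ivT / 256 ^ r.val)) ∧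
    r = rt (Fin.ofNat 16 (ivT / 256 ^ r.val % 256 / 16)) (Fin.ofNat 16 (ivT / 256 ^ r.val)) := by decide +kernel

theorem exists_rt (r : Fin chevE8.nroots) (h : 2 ∣ vec chevE8 8 r 0) : ∃ i j, Od i j ∧ r = rt i j := ⟨_, _, exists_rt0 r h⟩

theorem od_symm {i j : Fin 16} (h : Od i j) : Od j i := ⟨h.1.symm, fun e => h.2 (eq_bar.1 e)⟩

theorem od_bar {i j : Fin 16} (h : Od i j) : Od (bar j) (bar i) :=
  ⟨fun e => h.1 (bar_inj.1 e).symm, fun e => h.2 (by rw [e, bar_bar])⟩

theorem two_inj {a b : Q8} (h : (2 : ℤ) • a = (2 : ℤ) • b) : a = b := smul_right_injective _ two_ne_zero h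

theorem B0_Er (m : Fin 16) {k l : Fin 16} (h : Od k l) : B0 (E2 m) (vec chevE8 8 (rt k l)) =
    2 * (((if m = k then 1 else 0) - if m = bar k then 1 else 0) + ((if m = l then 1 else 0) - if m = bar l then 1 else 0)) := by
  have h1 := congrArg (B0 (E2 m)) (vec_rt k l h)
  rw [map_add, B0_E, B0_E, map_smul, smul_eq_mul] at h1
  omega

theorem B0_rr {i j k l : Fin 16} (h : Od i j) (h' : Od k l) : B0 (vec chevE8 8 (rt i j)) (vec chevE8 8 (rt k l)) =
    (((if i = k then 1 else 0) - if i = bar k then 1 else 0) + ((if i = l then 1 else 0) - if i = bar l then 1 else 0)) +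
    (((if j = k then 1 else 0) - if j = bar k then 1 else 0) + ((if j = l then 1 else 0) - if j = bar l then 1 else 0)) := by
  have h1 := congrArg (fun a => B0 a (vec chevE8 8 (rt k l))) (vec_rt i j h)
  simp only [map_add, map_smul, LinearMap.add_apply, LinearMap.smul_apply, smul_eq_mul, B0_Er _ h'] at h1
  omega

theorem rt_inj {i j k l : Fin 16} (h : Od i j) (h' : Od k l) (e : rt i j = rt k l) : (i = k ∧ j = l) ∨ (i = l ∧ j = k) := by
  have h1 := B0_vec (rt i j)
  nth_rw 2 [e] at h1
  rw [B0_rr h h'] at h1
  have := h.1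
  have := h'.1
  split_ifs at h1 <;> omega

theorem op_rt {i j : Fin 16} (h : Od i j) : op (rt i j) = rt (bar j) (bar i) :=
  vec_injective (two_inj (by rw [vec_op, smul_neg, vec_rt i j h, vec_rt _ _ (od_bar h), E2_bar, E2_bar]; abel))

variable {K : Type u} [Field K]

theorem br_nn {r s u : Fin chevE8.nroots} (h : vec chevE8 8 u = vec chevE8 8 r + vec chevE8 8 s) :
    br (ee K (Sum.inr r)) (ee K (Sum.inr s)) = (nn r s u : K) • ee K (Sum.inr u) := by
  have h0 : B0 (vec chevE8 8 r) (vec chevE8 8 s) = -1 := by
    have h2 := B0_vec u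
    rw [h, B0_add, B0_vec, B0_vec] at h2
    omega
  have h1 : s ≠ r := by
    rintro rfl
    rw [B0_vec] at h0
    omega
  have h2 : s ≠ op r := by
    rintro rfl
    rw [vec_op, map_neg, B0_vec] at h0
    omega
  have h3 := mx_xr_entry r (1 : K) (Sum.inr u) (Sum.inr s)
  rw [mx_xr, Elts.x_of_lt r.2, if_neg (c := _ ∧ _) fun e => h2 (Sum.inr.inj e.2), sub_zero, one_mul, adm_ee] at h3
  have h4 : chevE8.xMat K r 1 (Sum.inr u) (Sum.inr s) = (if u = s then 1 else 0) + (nn r s u : K) := by
    show (if s = r then _ else if s.val = chevE8.negIdx.getD r.val 0 then _ else _) = _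
    have h5 : ¬ s.val = chevE8.negIdx.getD r.val 0 := fun e => h2 (Fin.ext e)
    rw [if_neg h1, if_neg h5, nn, Int.cast_list_sum, List.map_map]
    simp only [one_pow, mul_one]
    rfl
  have h5 := h4.symm.trans h3
  simp only [Sum.inr.injEq] at h5
  rw [br_ee_smul h, add_left_cancel h5]

theorem hq_add (a b : Q8) : hq K (a + b) = hq K a + hq K b := by
  funext i
  rcases i with i | i <;> simp [hq]

theorem hq_neg (a : Q8) : hq K (-a) = -hq K a := by
  funext i
  rcases i with i | i <;> simp [hq]

variable (K) in
/-- the basis vectors of the subalgebra -/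
def cv (i j : Fin 16) : L8 K :=
  if j = i then 0 else if j = bar i then hq K (E2 j) else (sg i j : K) • ee K (Sum.inr (rt i j))

theorem cv_self (i : Fin 16) : cv K i i = 0 := if_pos rfl

theorem cv_bar (i : Fin 16) : cv K i (bar i) = hq K (E2 (bar i)) := by rw [cv, if_neg (bar_ne i), if_pos rfl]

theorem cv_od {i j : Fin 16} (h : Od i j) : cv K i j = (sg i j : K) • ee K (Sum.inr (rt i j)) := by
  rw [cv, if_neg h.1, if_neg h.2]

theorem od_cases (i j : Fin 16) : j = i ∨ j = bar i ∨ Od i j := by tauto

theorem cv_anti (i j : Fin 16) : cv K j i = -cv K i j := by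
  rcases od_cases i j with rfl | rfl | h
  · rw [cv_self, neg_zero]
  · have h1 := cv_bar (K := K) (bar i)
    rw [bar_bar] at h1
    rw [h1, cv_bar, E2_bar, hq_neg, neg_neg]
  · rw [cv_od h, cv_od (od_symm h), (tab_rt i j h).1, (tab_rt i j h).2.1, Int.cast_neg, neg_smul]

theorem sg_sq {i j : Fin 16} (h : Od i j) : (sg i j : K) * sg i j = 1 := by
  rw [← Int.cast_mul, (tab_rt i j h).2.2.2, Int.cast_one]

variable (K) in
/-- the right hand side of the bracket formula -/
def RR (i j k l : Fin 16) : L8 K := (if j = bar k then cv K i l else 0) - (if i = bar k then cv K j l else 0) -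
  (if j = bar l then cv K i k else 0) + if i = bar l then cv K j k else 0

theorem RR_1 (i j k l : Fin 16) : RR K j i k l = -RR K i j k l := by
  unfold RR
  abel

theorem RR_2 (i j k l : Fin 16) : RR K i j l k = -RR K i j k l := by
  unfold RR
  abel

theorem RR_3 (i j k l : Fin 16) : RR K k l i j = -RR K i j k l := by
  simp only [RR, eq_bar (i := k), eq_bar (i := l), cv_anti j k, cv_anti j l, cv_anti i k, cv_anti i l]
  split_ifs <;> abel

variable [CharP K 3]

theorem three_K : (3 : K) = 0 := by exact_mod_cast CharP.cast_eq_zero K 3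

theorem hq_three (a : Q8) : hq K ((3 : ℤ) • a) = 0 := by
  funext i
  rcases i with i | i <;> simp [hq, three_K]

theorem br_deg {i j : Fin 16} (h : j = i ∨ j = bar i) (k l : Fin 16) : br (cv K i j) (cv K k l) = RR K i j k l := by
  rcases h with rfl | rfl
  · rw [cv_self, br_zero_left, RR]
    abel
  have hb := bar_ne i
  rw [cv_bar, RR]
  simp only [bar_inj]
  rcases od_cases k l with rfl | rfl | h
  · rw [cv_self, br_zero_right]
    abel
  · rw [cv_bar, show br (hq K (E2 (bar i))) (hq K (E2 (bar k))) = 0 from funext fun m => by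
      rw [br_T (inT_hq _)]
      rcases m with m | m
      · rw [wt_inl, map_zero, zero_mul]
        rfl
      · rw [inT_hq, mul_zero]
        rfl]
    simp only [bar_bar, eq_bar (i := i) (j := k)]
    by_cases e1 : i = k
    · subst e1
      rw [if_pos rfl, if_neg hb.symm, if_neg hb.symm, if_pos rfl, cv_anti i]
      abel
    · rw [if_neg e1, if_neg e1]
      split_ifs with e2
      · rw [e2, bar_bar, cv_anti i]
        abel
      · abel
  · have h1 : (if i = k then cv K i l else 0) = (if i = k then (1 : K) else 0) • cv K k l := by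
      split_ifs with e <;> simp [e]
    have h2 : (if i = bar k then cv K (bar i) l else 0) = (if i = bar k then (1 : K) else 0) • cv K k l := by
      split_ifs with e <;> simp [e, bar_bar]
    have h3 : (if i = l then cv K i k else 0) = -(if i = l then (1 : K) else 0) • cv K k l := by
      split_ifs with e <;> simp [e, cv_anti k l]
    have h4 : (if i = bar l then cv K (bar i) k else 0) = -(if i = bar l then (1 : K) else 0) • cv K k l := by
      split_ifs with e <;> simp [e, bar_bar, cv_anti k l]
    rw [h1, h2, h3, h4, cv_od h, br_smul_right, br_T_ee (inT_hq _), ← rl_vec, rl_hq, E2_bar, map_neg, LinearMap.neg_apply,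
      B0_Er _ h]
    push_cast
    match_scalars
    linear_combination (-(sg k l : K) * (((if i = k then 1 else 0) - if i = bar k then 1 else 0) +
      ((if i = l then 1 else 0) - if i = bar l then 1 else 0))) * three_K (K := K)

theorem br_core {i j l : Fin 16} (h : Od i j) (h' : Od (bar j) l) :
    br (cv K i j) (cv K (bar j) l) = RR K i j (bar j) l := by
  rw [RR, bar_bar, if_pos rfl, if_neg h.1.symm, if_neg fun e => h'.1 (eq_bar.1 e), sub_zero, sub_zero, cv_od h, cv_od h',
    br_smul_left, br_smul_right, smul_smul]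
  rcases od_cases i l with rfl | rfl | h1
  · rw [cv_self, if_neg (bar_ne l).symm, add_zero, br_ee_zero, smul_zero]
    rw [B0_rr h h', bar_bar, if_pos rfl, if_pos rfl, if_neg h.1.symm, if_neg (bar_ne l).symm, if_neg (bar_ne j).symm,
      if_neg h.2]
    split_ifs <;> omega
  · rw [bar_bar, if_pos rfl, (tab_rt i j h).2.2.1, sg_sq h, one_smul, ← op_rt h, br_ee_op, cv_bar, cv_bar, ← hq_add, E2_bar,
      E2_bar, ← neg_add, ← vec_rt i j h, ← zero_add (hq K (-_)), ← hq_three (vec chevE8 8 (rt i j)), ← hq_add]
    congr 1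
    module
  · rw [if_neg fun e => h1.2 (eq_bar.1 e), add_zero, cv_od h1, br_nn (u := rt i l) (two_inj (by
      rw [smul_add, vec_rt i l h1, vec_rt i j h, vec_rt _ l h', E2_bar]; abel)), smul_smul, ← nn_rt i j h l h' h1]
    push_cast
    ring_nf

theorem br_cv (i j k l : Fin 16) : br (cv K i j) (cv K k l) = RR K i j k l := by
  by_cases h : Od i j
  swap
  · exact br_deg (by tauto) k l
  by_cases h' : Od k l
  swap
  · rw [br_anti, br_deg (by tauto), RR_3, neg_neg]
  have neg1 : ∀ x y : L8 K, br (-x) y = -br x y := fun x y => by rw [← neg_one_smul K x, br_smul_left, neg_one_smul]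
  have neg2 : ∀ x y : L8 K, br x (-y) = -br x y := fun x y => by rw [← neg_one_smul K y, br_smul_right, neg_one_smul]
  by_cases e1 : k = bar j
  · subst e1
    exact br_core h h'
  by_cases e2 : k = bar i
  · subst e2
    rw [cv_anti j i, neg1, br_core (od_symm h) h', RR_1, neg_neg]
  by_cases e3 : l = bar j
  · subst e3
    rw [cv_anti (bar j) k, neg2, br_core h (od_symm h'), RR_2, neg_neg]
  by_cases e4 : l = bar i
  · subst e4
    rw [cv_anti j i, cv_anti (bar i) k, neg1, neg2, br_core (od_symm h) (od_symm h'), RR_1, RR_2, neg_neg, neg_neg]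
  have k1 : ¬ j = bar k := fun e => e1 (eq_bar.1 e)
  have k2 : ¬ i = bar k := fun e => e2 (eq_bar.1 e)
  have k3 : ¬ j = bar l := fun e => e3 (eq_bar.1 e)
  have k4 : ¬ i = bar l := fun e => e4 (eq_bar.1 e)
  rw [RR, if_neg k1, if_neg k2, if_neg k3, if_neg k4, cv_od h, cv_od h', br_smul_left, br_smul_right, br_ee_zero]
  · simp
  · rw [B0_rr h h', if_neg k1, if_neg k2, if_neg k3, if_neg k4]
    split_ifs <;> omega

/-! ### the natural module -/

/-- the natural module -/
abbrev V16 (K : Type u) : Type u := Fin 16 → K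

variable (K) in
/-- the standard basis -/
def vb (i : Fin 16) : V16 K := Pi.single i 1

variable (K) in
/-- the form -/
def fm : V16 K →ₗ[K] V16 K →ₗ[K] K := ∑ i, (LinearMap.proj i).smulRight (LinearMap.proj (bar i))

variable (K) in
/-- the exterior product -/
noncomputable def be : V16 K →ₗ[K] V16 K →ₗ[K] L8 K :=
  ∑ i, ∑ j, (LinearMap.proj i).smulRight ((LinearMap.proj j).smulRight (cv K i j))

section

omit [CharP K 3]

theorem vb_apply (i j : Fin 16) : vb K i j = if j = i then 1 else 0 := Pi.single_apply _ _ _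

theorem fm_apply (x y : V16 K) : fm K x y = ∑ i, x i * y (bar i) := by simp [fm, LinearMap.sum_apply]

theorem be_apply (x y : V16 K) : be K x y = ∑ i, ∑ j, x i • y j • cv K i j := by simp [be, LinearMap.sum_apply]

theorem fm_vb (i : Fin 16) (y : V16 K) : fm K (vb K i) y = y (bar i) := by simp [fm_apply, vb_apply]

theorem fm_comm (x y : V16 K) : fm K x y = fm K y x := by
  rw [fm_apply, fm_apply, ← Equiv.sum_comp (Function.Involutive.toPerm bar bar_bar)]
  refine Finset.sum_congr rfl fun i _ => ?_
  change x (bar i) * y (bar (bar i)) = _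
  rw [bar_bar, mul_comm]

theorem fm_vb' (i : Fin 16) (y : V16 K) : fm K y (vb K i) = y (bar i) := by rw [fm_comm, fm_vb]

theorem fm_nd {x : V16 K} (h : ∀ y, fm K x y = 0) : x = 0 := funext fun i => by
  rw [← bar_bar i, ← fm_vb' (bar i) x, h]
  rfl

theorem be_vb (i j : Fin 16) : be K (vb K i) (vb K j) = cv K i j := by simp [be_apply, vb_apply]

theorem be_anti (x y : V16 K) : be K y x = -be K x y := by
  rw [be_apply, be_apply, Finset.sum_comm, ← Finset.sum_neg_distrib]
  refine Finset.sum_congr rfl fun i _ => ?_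
  rw [← Finset.sum_neg_distrib]
  exact Finset.sum_congr rfl fun j _ => by rw [cv_anti, smul_comm, smul_neg, smul_neg]

theorem ind {P : V16 K → Prop} (h0 : ∀ i, P (vb K i)) (ha : ∀ x y, P x → P y → P (x + y)) (hs : ∀ (c : K) x, P x → P (c • x))
    (x : V16 K) : P x := by
  rw [pi_eq_sum_univ' x]
  refine Finset.sum_induction _ P ha ?_ fun i _ => hs _ _ (h0 i)
  rw [← zero_smul K (vb K 0)]
  exact hs _ _ (h0 0)

theorem cv_rt (k l : Fin 16) {i j : Fin 16} (h : Od i j) : cv K k l (Sum.inr (rt i j)) =
    (sg i j : K) * (vb K k i * vb K l j - vb K k j * vb K l i) := by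
  rw [vb_apply, vb_apply, vb_apply, vb_apply]
  by_cases e1 : i = k ∧ j = l
  · obtain ⟨rfl, rfl⟩ := e1
    simp [cv_od h, ee_self, h.1]
  by_cases e2 : i = l ∧ j = k
  · obtain ⟨rfl, rfl⟩ := e2
    simp [cv_anti i j, cv_od h, ee_self, h.1]
  rw [show cv K k l (Sum.inr (rt i j)) = 0 by
    rcases od_cases k l with rfl | rfl | h'
    · rw [cv_self]
      rfl
    · rw [cv_bar, inT_hq]
    · rw [cv_od h', Pi.smul_apply, ee_ne fun e => (rt_inj h h' (Sum.inr.inj e)).elim e1 e2, smul_zero]]
  split_ifs <;> simp_all

theorem be_rt (x y : V16 K) {i j : Fin 16} (h : Od i j) :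
    be K x y (Sum.inr (rt i j)) = (sg i j : K) * (x i * y j - x j * y i) := by
  induction x using ind with
  | h0 k =>
    induction y using ind with
    | h0 l => rw [be_vb, cv_rt k l h]
    | ha y y' h1 h2 => simp only [map_add, Pi.add_apply, h1, h2]; ring
    | hs c y h1 => simp only [map_smul, Pi.smul_apply, h1, smul_eq_mul]; ring
  | ha x x' h1 h2 => simp only [map_add, LinearMap.add_apply, Pi.add_apply, h1, h2]; ring
  | hs c x h1 => simp only [map_smul, LinearMap.smul_apply, Pi.smul_apply, h1, smul_eq_mul]; ring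

end

theorem be_self (x : V16 K) : be K x x = 0 := by
  have h := be_anti x x
  have h3 : (3 : K) • be K x x = 0 := by rw [three_K, zero_smul]
  have h4 : (3 : K) • be K x x = be K x x + (be K x x - -be K x x) := by module
  rwa [h3, ← h, sub_self, add_zero, eq_comm] at h4

theorem rl_be (x y : V16 K) (m : Fin 16) : rl (be K x y) (E2 m) = x (bar m) * y m - x m * y (bar m) := by
  induction x using ind with
  | h0 k =>
    induction y using ind with
    | h0 l =>
      rw [be_vb, vb_apply, vb_apply, vb_apply, vb_apply]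
      have := bar_ne m
      have := bar_bar m
      rcases od_cases k l with rfl | rfl | h
      · rw [cv_self, rl_zero]
        ring
      · rw [cv_bar, rl_hq, B0_E]
        simp only [bar_inj, eq_bar (i := m) (j := k), eq_comm (a := bar k) (b := m), eq_comm (a := bar m) (b := k),
          eq_comm (a := k) (b := m)]
        push_cast
        split_ifs with e1 e2
        · exact absurd (e1.symm.trans e2.symm) (bar_ne m)
        · linear_combination three_K (K := K)
        · linear_combination -three_K (K := K)
        · ring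
      · rw [cv_od h, rl_smul, rl_ee, mul_zero]
        have h1 : ¬ (bar m = k ∧ m = l) := fun e => h.2 (by rw [← e.1, ← e.2, bar_bar])
        have h2 : ¬ (m = k ∧ bar m = l) := fun e => h.2 (by rw [← e.1, ← e.2])
        rw [ite_zero_mul_ite_zero, ite_zero_mul_ite_zero, if_neg h1, if_neg h2, sub_self]
    | ha y y' h1 h2 => simp only [map_add, rl_add, Pi.add_apply, h1, h2]; ring
    | hs c y h1 => simp only [map_smul, rl_smul, Pi.smul_apply, h1, smul_eq_mul]; ring
  | ha x x' h1 h2 => simp only [map_add, LinearMap.add_apply, rl_add, Pi.add_apply, h1, h2]; ring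
  | hs c x h1 => simp only [map_smul, LinearMap.smul_apply, rl_smul, Pi.smul_apply, h1, smul_eq_mul]; ring

theorem be_inj {x y x' y' : V16 K} (h : be K x y = be K x' y') (i j : Fin 16) :
    x i * y j - x j * y i = x' i * y' j - x' j * y' i := by
  rcases od_cases i j with rfl | rfl | e
  · ring
  · have h1 := rl_be x y i
    rw [h, rl_be] at h1
    linear_combination h1
  · have h1 := be_rt x y e
    rw [h, be_rt _ _ e] at h1
    linear_combination (-(sg i j : K)) * h1 - (x i * y j - x j * y i - (x' i * y' j - x' j * y' i)) *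
      sg_sq (K := K) e

theorem be_eq_zero {x y : V16 K} (h : be K x y = 0) (i j : Fin 16) : x i * y j = x j * y i := by
  have h1 := be_inj (x' := 0) (y' := 0) (h.trans (be_self (K := K) 0).symm) i j
  simp only [Pi.zero_apply, mul_zero, sub_self] at h1
  exact sub_eq_zero.1 h1

theorem br_be (a b c d : V16 K) : br (be K a b) (be K c d) =
    fm K b c • be K a d - fm K a c • be K b d - fm K b d • be K a c + fm K a d • be K b c := by
  induction a using ind with
  | h0 i =>
    induction b using ind with
    | h0 j =>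
      induction c using ind with
      | h0 k =>
        induction d using ind with
        | h0 l =>
          simp only [be_vb, fm_vb', vb_apply, br_cv, RR, eq_comm (a := bar k), eq_comm (a := bar l), ite_smul, one_smul,
            zero_smul]
        | ha y y' h1 h2 => simp only [map_add, br_add_right, h1, h2]; module
        | hs c y h1 => simp only [map_smul, br_smul_right, h1, smul_eq_mul]; module
      | ha x x' h1 h2 => simp only [map_add, LinearMap.add_apply, br_add_right, h1, h2]; module
      | hs c x h1 => simp only [map_smul, LinearMap.smul_apply, br_smul_right, h1, smul_eq_mul]; module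
    | ha y y' h1 h2 => simp only [map_add, LinearMap.add_apply, br_add_left, h1, h2]; module
    | hs c y h1 => simp only [map_smul, LinearMap.smul_apply, br_smul_left, h1, smul_eq_mul]; module
  | ha x x' h1 h2 => simp only [map_add, LinearMap.add_apply, br_add_left, h1, h2]; module
  | hs c x h1 => simp only [map_smul, LinearMap.smul_apply, br_smul_left, h1, smul_eq_mul]; module

end Cfsg.Agent.E8A.D44
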